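import Cfsg.Agent.T33.Defs

/-!
# Groups with small centralizers of elements of order three: first properties
-/

set_option autoImplicit false

namespace Cfsg.Lib.T33

open Subgroup Cfsg.Lib.Trans

universe u v

variable {G : Type u} [Group G] {P : Subgroup G} {s : Fin 4 → G} {i e : G}

theorem mem_Cs {x g : G} : g ∈ Cs x ↔ g * x = x * g := mem_centralizer_singleton_iff

theorem mem_Ce {A : Subgroup G} {g : G} : g ∈ Ce A ↔ ∀ a ∈ A, a * g = g * a :=
  mem_centralizer_iff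

theorem Ce_symm {A B : Subgroup G} (h : A ≤ Ce B) : B ≤ Ce A :=
  fun _ hb => mem_Ce.2 fun _ ha => (mem_Ce.1 (h ha) _ hb).symm

theorem mem_Nm [Finite G] {A : Subgroup G} {g : G} (h : ∀ a ∈ A, g * a * g⁻¹ ∈ A) : g ∈ Nm A :=
  mem_normalizer_of_cj_le (cj_le_iff.2 h)

theorem Vs_map {H : Type v} [Group H] (f : G ≃* H) (x : G) :
    Vs (f x) = (Vs x).map f.toMonoidHom := by
  rw [Vs, Vs, MonoidHom.map_closure]
  congr 1
  ext h
  constructor
  · rintro ⟨h1, h2⟩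
    refine ⟨f.symm h, ⟨f.injective ?_, f.injective ?_⟩, f.apply_symm_apply h⟩
    · simpa using h1
    · simpa using h2
  · rintro ⟨g, ⟨h1, h2⟩, rfl⟩
    exact ⟨by simpa using congrArg f h1, by simpa using congrArg f h2⟩

theorem Vs_conj (g x : G) : Vs (g * x * g⁻¹) = cj g (Vs x) := Vs_map (MulAut.conj g) x

theorem Vs_inv (x : G) : Vs x⁻¹ = Vs x := by
  rw [Vs, Vs]
  congr 1
  ext g
  exact and_congr_left' (Commute.inv_right_iff (a := g) (b := x))

theorem El.inv_eq {A : Subgroup G} {n : ℕ} (h : El A n) {a : G} (ha : a ∈ A) : a⁻¹ = a :=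
  inv_eq_of_mul_eq_one_right (h.sq a ha)

theorem comm_of_sq {A : Subgroup G} (h : ∀ a ∈ A, a * a = 1) : ∀ a ∈ A, ∀ b ∈ A, a * b = b * a :=
  fun a ha b hb => by
    rw [← inv_eq_of_mul_eq_one_right (h _ (mul_mem ha hb)), mul_inv_rev,
      inv_eq_of_mul_eq_one_right (h a ha), inv_eq_of_mul_eq_one_right (h b hb)]

theorem El.comm {A : Subgroup G} {n : ℕ} (h : El A n) : ∀ a ∈ A, ∀ b ∈ A, a * b = b * a :=
  comm_of_sq h.sq

theorem El.le_Ce {A : Subgroup G} {n : ℕ} (h : El A n) : A ≤ Ce A :=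
  fun a ha => mem_Ce.2 fun b hb => h.comm b hb a ha

theorem El.conj {A : Subgroup G} {n : ℕ} (h : El A n) (g : G) : El (cj g A) n :=
  ⟨by rintro _ ⟨a, ha, rfl⟩; rw [← map_mul, h.sq a ha, map_one], (card_cj g A).trans h.card⟩

theorem pgroup_of_sq {A : Subgroup G} (h : ∀ a ∈ A, a * a = 1) : IsPGroup 2 A :=
  fun a => ⟨1, Subtype.ext (by simpa [sq] using h a a.2)⟩

theorem El.pgroup {A : Subgroup G} {n : ℕ} (h : El A n) : IsPGroup 2 A := pgroup_of_sq h.sq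

theorem Hy.congr {H : Type v} [Group H] (h : Hy G) (f : G ≃* H) : Hy H := by
  have o : ∀ x : G, orderOf (f x) = orderOf x := fun x => f.orderOf_eq x
  have m : ∀ x g : G, f g ∈ Vs (f x) ↔ g ∈ Vs x := fun x g => by
    rw [Vs_map]; exact mem_map_iff_mem f.injective
  have c : ∀ x : G, Nat.card (Vs (f x)) = Nat.card (Vs x) := fun x => by
    rw [Vs_map]; exact card_map_of_injective f.injective
  refine ⟨fun x hx g => ?_, fun x hx => ?_, fun x hx => ?_, fun x hx g hg => ?_,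
    fun x r hx hr hc hn v hv hvr => ?_⟩
  · obtain ⟨x, rfl⟩ := f.surjective x
    obtain ⟨g, rfl⟩ := f.surjective g
    rw [m, h.mem x (o x ▸ hx), ← map_mul, ← map_mul, ← map_mul, f.injective.eq_iff,
      f.map_eq_one_iff]
  · obtain ⟨x, rfl⟩ := f.surjective x
    refine (h.card x (o x ▸ hx)).imp (fun e => ?_) fun e => (c x).trans e
    rw [Vs_map, e, Subgroup.map_bot]
  · obtain ⟨x, rfl⟩ := f.surjective x
    rw [c, ← h.cardC x (o x ▸ hx)]
    refine (Nat.card_congr (f.toEquiv.subtypeEquiv fun g => ?_)).symm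
    change g ∈ Cs x ↔ f g ∈ Cs (f x)
    rw [mem_Cs, mem_Cs, ← map_mul, ← map_mul, f.injective.eq_iff]
  · obtain ⟨x, rfl⟩ := f.surjective x
    obtain ⟨g, rfl⟩ := f.surjective g
    rw [← map_pow, m]
    exact h.cube x (o x ▸ hx) g (f.injective (by simpa using hg))
  · obtain ⟨x, rfl⟩ := f.surjective x
    obtain ⟨r, rfl⟩ := f.surjective r
    obtain ⟨v, rfl⟩ := f.surjective v
    rw [h.fpf x r (o x ▸ hx) (o r ▸ hr) (f.injective (by simpa using hc))
      (fun ⟨k, e⟩ => hn ⟨k, by rw [← e]; simp⟩) v ((m x v).1 hv) (f.injective (by simpa using hvr)),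
      map_one]

theorem Hy.sq (h : Hy G) {x v : G} (hx : orderOf x = 3) (hv : v ∈ Vs x) : v * v = 1 :=
  ((h.mem x hx v).1 hv).2

theorem Hy.comm (h : Hy G) {x v : G} (hx : orderOf x = 3) (hv : v ∈ Vs x) : v * x = x * v :=
  ((h.mem x hx v).1 hv).1

theorem Hy.el (h : Hy G) {x : G} (hx : orderOf x = 3) (h1 : Vs x ≠ ⊥) : El (Vs x) 4 :=
  ⟨fun _ hv => h.sq hx hv, (h.card x hx).resolve_left h1⟩

theorem Hy.card_le [Finite G] (h : Hy G) {x : G} (hx : orderOf x = 3) : Nat.card (Vs x) ≤ 4 := by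
  rcases h.card x hx with e | e <;> simp [e]

theorem Hy.V_pgroup (h : Hy G) {x : G} (hx : orderOf x = 3) : IsPGroup 2 (Vs x) :=
  pgroup_of_sq fun _ hv => h.sq hx hv

theorem Hy.V_le_Ce (h : Hy G) {x : G} (hx : orderOf x = 3) : Vs x ≤ Ce (Vs x) :=
  fun a ha => mem_Ce.2 fun b hb => comm_of_sq (fun _ hv => h.sq hx hv) b hb a ha

theorem exists_three_pow [Finite G] {x : G} (hx : 3 ∣ orderOf x) :
    ∃ y ∈ zpowers x, orderOf y = 3 :=
  ⟨x ^ (orderOf x / 3), npow_mem_zpowers _ _, orderOf_pow_orderOf_div (orderOf_pos x).ne' hx⟩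

theorem comm_of_mem_zpowers {x y v : G} (hy : y ∈ zpowers x) (h : v * x = x * v) :
    v * y = y * v := by
  obtain ⟨k, rfl⟩ := hy
  exact Commute.zpow_right h k

theorem Hy.exists_three [Finite G] (h : Hy G) {x : G} (hx : 3 ∣ orderOf x) :
    ∃ y ∈ zpowers x, orderOf y = 3 ∧ ∀ v, v * x = x * v → v * v = 1 → v ∈ Vs y := by
  obtain ⟨y, hy, h3⟩ := exists_three_pow hx
  exact ⟨y, hy, h3, fun v h1 h2 => (h.mem y h3 v).2 ⟨comm_of_mem_zpowers hy h1, h2⟩⟩

theorem Hy.pow_six [Finite G] (h : Hy G) {x : G} (hx : 3 ∣ orderOf x) : x ^ 6 = 1 := by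
  obtain ⟨y, hy, h3⟩ := exists_three_pow hx
  have := h.sq h3 (h.cube y h3 x (comm_of_mem_zpowers hy rfl))
  rwa [← pow_add] at this

theorem Hy.not_nine [Finite G] (h : Hy G) (x : G) : orderOf x ≠ 9 := fun e => by
  have := orderOf_dvd_of_pow_eq_one (h.pow_six (x := x) (by rw [e]; decide))
  rw [e] at this
  omega

theorem Hy.mem_of_coprime [Finite G] (h : Hy G) {x g : G} (hx : orderOf x = 3) (hg : g * x = x * g)
    (h3 : ¬ 3 ∣ orderOf g) : g ∈ Vs x := by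
  obtain ⟨m, hm⟩ := exists_pow_eq_self_of_coprime
    ((Nat.Prime.coprime_iff_not_dvd Nat.prime_three).2 h3)
  rw [← hm]
  exact pow_mem (h.cube x hx g hg) m

/-- An elementary abelian group of order more than four has a centralizer of order prime to
three. -/
theorem Hy.not_three_dvd [Finite G] (h : Hy G) {A : Subgroup G} {n : ℕ} (hA : El A n) (hn : 4 < n)
    {g : G} (hg : g ∈ Ce A) : ¬ 3 ∣ orderOf g := fun h3 => by
  obtain ⟨y, -, o, hy⟩ := h.exists_three h3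
  have := (card_le_of_le (T := A) (U := Vs y) fun a ha =>
    hy a (mem_Ce.1 hg a ha) (hA.sq a ha)).trans (h.card_le o)
  rw [hA.card] at this
  omega

theorem Hy.cube_one [Finite G] (h : Hy G) {Q : Subgroup G} (hQ : IsPGroup 3 Q) {x : G}
    (hx : x ∈ Q) : x ^ 3 = 1 := by
  obtain ⟨k, hk⟩ := hQ ⟨x, hx⟩
  have h1 : x ^ 3 ^ k = 1 := congrArg Subtype.val hk
  by_cases h3 : 3 ∣ orderOf x
  · have h2 := orderOf_dvd_of_pow_eq_one (h.pow_six h3)
    obtain ⟨m, -, e⟩ := (Nat.dvd_prime_pow Nat.prime_three).1 (orderOf_dvd_of_pow_eq_one h1)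
    rw [← orderOf_dvd_iff_pow_eq_one, e]
    rw [e] at h2
    exact (Nat.Coprime.pow_left m (by decide : Nat.Coprime 3 2)).dvd_of_dvd_mul_left h2
  · have := Nat.eq_one_of_dvd_coprimes
      (((Nat.Prime.coprime_iff_not_dvd Nat.prime_three).2 h3).pow_left k)
      (orderOf_dvd_of_pow_eq_one h1) dvd_rfl
    rw [orderOf_eq_one_iff.1 this, one_pow]

theorem ord_three {x : G} (h : x ^ 3 = 1) (h1 : x ≠ 1) : orderOf x = 3 :=
  have := Fact.mk Nat.prime_three
  orderOf_eq_prime h h1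

theorem cube_of_ord {x : G} (h : orderOf x = 3) : x ^ 3 = 1 := h ▸ pow_orderOf_eq_one x

theorem ne_one_of_ord {x : G} (h : orderOf x = 3) : x ≠ 1 := fun e => by simp [e] at h

theorem mem_zpowers_three {x y : G} (h : orderOf x = 3) (hy : y ∈ zpowers x) :
    y = 1 ∨ y = x ∨ y = x⁻¹ := by
  obtain ⟨k, rfl⟩ := hy
  have h3 := cube_of_ord h
  change x ^ k = 1 ∨ x ^ k = x ∨ x ^ k = x⁻¹
  rw [← zpow_mod_orderOf, h]
  have : k % (3 : ℕ) = 0 ∨ k % (3 : ℕ) = 1 ∨ k % (3 : ℕ) = 2 := by omega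
  rcases this with e | e | e <;> rw [e]
  · simp
  · simp
  · refine .inr (.inr (eq_inv_of_mul_eq_one_left ?_))
    rw [← h3]; group

theorem Hy.fact3 [Finite G] (h : Hy G) (hex : ∃ x : G, orderOf x = 3) :
    (Nat.card G).factorization 3 = 2 := by
  have := Fact.mk Nat.prime_three
  obtain ⟨x, hx⟩ := hex
  have h0 := (Nat.card_pos (α := G)).ne'
  have h9 : 3 ^ 2 ∣ Nat.card G := (Dvd.intro _ (h.cardC x hx).symm).trans (card_subgroup_dvd_card _)
  refine le_antisymm ?_ ((Nat.prime_three.pow_dvd_iff_le_factorization h0).1 h9)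
  obtain ⟨T, hT⟩ := exists_isSylowIn (p := 3) (⊤ : Subgroup G)
  have c := hT.card_eq
  rw [card_top] at c
  have hT1 : Nontrivial T := by
    rw [← Finite.one_lt_card_iff_nontrivial, c]
    exact Nat.one_lt_pow (fun e => by
      have := (Nat.prime_three.pow_dvd_iff_le_factorization h0).1 h9
      omega) (by decide)
  have := hT.isPGroup.center_nontrivial
  obtain ⟨⟨z, hz⟩, z1⟩ := exists_ne (1 : center T)
  have o : orderOf (z : G) = 3 :=
    ord_three (h.cube_one hT.isPGroup z.2) fun e => z1 (Subtype.ext (Subtype.ext e))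
  have le : T ≤ Cs (z : G) := fun t ht =>
    mem_Cs.2 (congrArg Subtype.val (mem_center_iff.1 hz ⟨t, ht⟩))
  have d := card_dvd_of_le le
  rw [c, h.cardC _ o] at d
  by_contra! h3
  have d2 := (pow_dvd_pow 3 h3).trans d
  rcases h.card _ o with e | e <;> rw [e] at d2 <;> simp at d2

theorem Hy.syl [Finite G] (h : Hy G) {P : Subgroup G} (hP : Nat.card P = 9) :
    IsSylowIn 3 P ⊤ := by
  have := Fact.mk Nat.prime_three
  have p3 : IsPGroup 3 P := .of_card (n := 2) hP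
  obtain ⟨x, hx⟩ := exists_prime_orderOf_dvd_card' (G := P) 3 (by rw [hP]; decide)
  obtain ⟨T, hT⟩ := exists_isSylowIn (p := 3) (⊤ : Subgroup G)
  refine hT.of_card_ge p3 le_top ?_
  rw [hT.card_eq, card_top, h.fact3 ⟨x, (orderOf_coe x).trans hx⟩, hP]
  decide

theorem Fr.pgroup (F : Fr P s) : IsPGroup 3 P := F.syl.isPGroup

theorem Fr.cube (F : Fr P s) {x : G} (hx : x ∈ P) : x ^ 3 = 1 := by
  rcases F.cov x hx with rfl | ⟨k, rfl | rfl⟩
  · exact one_pow 3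
  · exact cube_of_ord (F.ord k)
  · rw [inv_pow, cube_of_ord (F.ord k), inv_one]

theorem Fr.ord_of_mem (F : Fr P s) {x : G} (hx : x ∈ P) (x1 : x ≠ 1) : orderOf x = 3 :=
  ord_three (F.cube hx) x1

theorem Fr.perm (F : Fr P s) (π : Equiv.Perm (Fin 4)) : Fr P (s ∘ π) :=
  ⟨F.syl, F.card, F.comm, fun _ => F.mem _, fun _ => F.ord _, fun x hx =>
    (F.cov x hx).imp_right fun ⟨k, hk⟩ => ⟨π.symm k, by simpa using hk⟩,
    fun _ _ hjk => F.ne _ _ (π.injective.ne hjk)⟩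

theorem Fr.conj (F : Fr P s) (g : G) : Fr (cj g P) fun k => g * s k * g⁻¹ := by
  refine ⟨cj_top g ▸ F.syl.cj g, (card_cj g P).trans F.card, ?_, fun k => conj_mem_cj.2 (F.mem k),
    fun k => ((MulAut.conj g).orderOf_eq (s k)).trans (F.ord k), ?_, fun j k hjk hm => ?_⟩
  · rintro _ ⟨x, hx, rfl⟩ _ ⟨y, hy, rfl⟩
    rw [← map_mul, ← map_mul, F.comm x hx y hy]
  · rintro _ ⟨x, hx, rfl⟩
    rcases F.cov x hx with rfl | ⟨k, rfl | rfl⟩
    · exact .inl (map_one _)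
    · exact .inr ⟨k, .inl rfl⟩
    · exact .inr ⟨k, .inr (map_inv _ _)⟩
  · rw [← cj_zpowers, conj_mem_cj] at hm
    exact F.ne j k hjk hm

theorem Fr.exists_conj [Finite G] (F : Fr P s) {K : Subgroup G} (hK : P ≤ K) {x : G} (hxK : x ∈ K)
    (hx : orderOf x = 3) : ∃ g ∈ K, ∃ k, x = g * s k * g⁻¹ ∨ x = g * (s k)⁻¹ * g⁻¹ := by
  have := Fact.mk Nat.prime_three
  obtain ⟨g, hg, le⟩ := (F.syl.mono hK le_top).exists_cj_le (Q := zpowers x)
    (.of_card (n := 1) (by rw [Nat.card_zpowers, hx, pow_one])) (zpowers_le.2 hxK)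
  rcases F.cov _ (le (conj_mem_cj.2 (mem_zpowers x))) with e | ⟨k, e | e⟩
  · exact absurd (conj_eq_one_iff.1 e) (ne_one_of_ord hx)
  · exact ⟨g⁻¹, inv_mem hg, k, .inl (by rw [← e]; group)⟩
  · exact ⟨g⁻¹, inv_mem hg, k, .inr (by rw [← e]; group)⟩

/-- `V x` is conjugate to some `V k`. -/
theorem Fr.exists_cj_V [Finite G] (F : Fr P s) {K : Subgroup G} (hK : P ≤ K) {x : G} (hxK : x ∈ K)
    (hx : orderOf x = 3) : ∃ g ∈ K, ∃ k, Vs x = cj g (Vs (s k)) ∧
      zpowers x = cj g (zpowers (s k)) := by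
  obtain ⟨g, hg, k, rfl | rfl⟩ := F.exists_conj hK hxK hx
  · exact ⟨g, hg, k, Vs_conj _ _, (cj_zpowers _ _).symm⟩
  · exact ⟨g, hg, k, by rw [Vs_conj, Vs_inv], by rw [← cj_zpowers, zpowers_inv]⟩

theorem nm_V_of_comm {g x : G} (h : g * x = x * g) : g ∈ Nm (Vs x) := by
  rw [← cj_eq_self_iff, ← Vs_conj, h, mul_inv_cancel_right]

theorem Fr.le_Nm_V (F : Fr P s) (k : Fin 4) : P ≤ Nm (Vs (s k)) :=
  fun p hp => nm_V_of_comm (F.comm p hp _ (F.mem k))

theorem Fr.fpf (h : Hy G) (F : Fr P s) {j k : Fin 4} (hjk : j ≠ k) {v : G} (hv : v ∈ Vs (s k))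
    (hc : v * s j = s j * v) : v = 1 :=
  h.fpf _ _ (F.ord k) (F.ord j) (F.comm _ (F.mem j) _ (F.mem k)) (F.ne j k hjk) v hv hc

theorem Fr.fpf' (h : Hy G) (F : Fr P s) {k : Fin 4} {p v : G} (hp : p ∈ P)
    (hk : p ∉ zpowers (s k)) (hv : v ∈ Vs (s k)) (hc : v * p = p * v) : v = 1 :=
  h.fpf _ _ (F.ord k) (F.ord_of_mem hp fun e => hk (e ▸ one_mem _)) (F.comm _ hp _ (F.mem k))
    hk v hv hc

theorem Fr.V_inf (h : Hy G) (F : Fr P s) {j k : Fin 4} (hjk : j ≠ k) :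
    Vs (s j) ⊓ Vs (s k) = ⊥ :=
  eq_bot_iff.2 fun _ hv => F.fpf h hjk hv.2 (h.comm (F.ord j) hv.1)

theorem Fr.eq_one_of_sq (F : Fr P s) {x : G} (hx : x ∈ P) (h2 : x * x = 1) : x = 1 := by
  have := F.cube hx
  rwa [pow_succ, sq, h2, one_mul] at this

theorem Fr.cj_V (F : Fr P s) {g : G} {j k : Fin 4} (hc : g * s k * g⁻¹ ∈ zpowers (s j)) :
    cj g (Vs (s k)) = Vs (s j) := by
  rw [← Vs_conj]
  rcases mem_zpowers_three (F.ord j) hc with e | e | e
  · exact absurd (conj_eq_one_iff.1 e) (ne_one_of_ord (F.ord k))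
  · rw [e]
  · rw [e, Vs_inv]

theorem Fr.exists_line (F : Fr P s) {g : G} (hg : g ∈ Nm P) (k : Fin 4) :
    ∃ j, g * s k * g⁻¹ ∈ zpowers (s j) ∧ cj g (Vs (s k)) = Vs (s j) := by
  suffices ∃ j, g * s k * g⁻¹ ∈ zpowers (s j) from this.imp fun j hj => ⟨hj, F.cj_V hj⟩
  rcases F.cov _ (mem_normalizer_conj hg (F.mem k)) with e | ⟨j, e | e⟩
  · exact ⟨0, e ▸ one_mem _⟩
  · exact ⟨j, e ▸ mem_zpowers _⟩
  · exact ⟨j, e ▸ inv_mem (mem_zpowers _)⟩

theorem Iv.nrm (hi : Iv P i) : i ∈ Nm P := by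
  have e : i⁻¹ = i := inv_eq_of_mul_eq_one_right hi.sq
  refine mem_normalizer_iff.2 fun x => ⟨fun hx => (hi.inv x hx).symm ▸ inv_mem hx, fun hx => ?_⟩
  have := inv_mem hx
  rw [← hi.inv _ hx] at this
  convert this using 1
  rw [e]
  calc x = (i * i) * x * (i * i) := by rw [hi.sq]; group
    _ = _ := by group

theorem Iv.nrm_V (F : Fr P s) (hi : Iv P i) (k : Fin 4) : i ∈ Nm (Vs (s k)) := by
  rw [← cj_eq_self_iff, ← Vs_conj, hi.inv _ (F.mem k), Vs_inv]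

theorem Iv.not_mem (F : Fr P s) (hi : Iv P i) : i ∉ P := fun hP => by
  have h1 := hi.inv _ (F.mem 0)
  rw [F.comm _ hP _ (F.mem 0), mul_inv_cancel_right] at h1
  exact ne_one_of_ord (F.ord 0) (F.eq_one_of_sq (F.mem 0) (eq_inv_iff_mul_eq_one.1 h1))

theorem three_dvd [Finite G] {a u b c : G} (ha : a * a = 1) (hu : u * u = 1) (hau : a * u = u * a)
    (_a1 : a ≠ 1) (_u1 : u ≠ 1) (ne : a ≠ u) (b1 : b * a * b⁻¹ = a) (b2 : b * u * b⁻¹ = u * a)
    (c1 : c * a * c⁻¹ = a * u) (c2 : c * u * c⁻¹ = u) : 3 ∣ orderOf (b * c) := by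
  have e1 : b * c * a * (b * c)⁻¹ = u := by
    calc _ = b * (c * a * c⁻¹) * b⁻¹ := by group
      _ = b * a * b⁻¹ * (b * u * b⁻¹) := by rw [c1]; group
      _ = u := by rw [b1, b2, ← hau, ← mul_assoc, ha, one_mul]
  have e2 : b * c * u * (b * c)⁻¹ = u * a := by
    calc _ = b * (c * u * c⁻¹) * b⁻¹ := by group
      _ = _ := by rw [c2, b2]
  have e3 : b * c * (u * a) * (b * c)⁻¹ = a := by
    calc _ = b * c * u * (b * c)⁻¹ * (b * c * a * (b * c)⁻¹) := by group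
      _ = a := by rw [e1, e2, ← hau, mul_assoc, hu, mul_one]
  generalize b * c = x at e1 e2 e3
  have st : ∀ (n : ℕ) (y : G), x ^ (n + 1) * y * (x ^ (n + 1))⁻¹ =
      x ^ n * (x * y * x⁻¹) * (x ^ n)⁻¹ := fun n y => by group
  have key : ∀ m : ℕ, x ^ (3 * m) * a * (x ^ (3 * m))⁻¹ = a ∧
      x ^ (3 * m) * u * (x ^ (3 * m))⁻¹ = u := fun m => by
    induction m with
    | zero => simp
    | succ m ih =>
      rw [mul_add, mul_one]
      exact ⟨by rw [st, e1, st, e2, st, e3, ih.1], by rw [st, e2, st, e3, st, e1, ih.2]⟩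
  by_contra h3
  have h1 := pow_orderOf_eq_one x
  obtain ⟨m, e | e⟩ : ∃ m, orderOf x = 3 * m + 1 ∨ orderOf x = 3 * m + 1 + 1 :=
    ⟨orderOf x / 3, by omega⟩
  · have := st (3 * m) a
    rw [← e, h1, e1, (key m).2] at this
    exact ne (by simpa using this)
  · have := st (3 * m + 1) u
    rw [← e, h1, e2, st, e3, (key m).1] at this
    exact ne (by simpa using this.symm)

theorem exists_lines : ∃ t : Fin 4 → Multiplicative (ZMod 3) × Multiplicative (ZMod 3),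
    (∀ k, t k ≠ 1) ∧ (∀ x, x = 1 ∨ ∃ k, x = t k ∨ x = (t k)⁻¹) ∧
      ∀ j k, j ≠ k → t j ≠ t k ∧ t j ≠ (t k)⁻¹ :=
  ⟨![(.ofAdd 1, 1), (1, .ofAdd 1), (.ofAdd 1, .ofAdd 1), (.ofAdd 1, .ofAdd 2)],
    by decide, by decide, by decide⟩

theorem Hy.exists_Fr [Finite G] (h : Hy G) {P : Subgroup G} (hP : Nat.card P = 9) :
    ∃ s, Fr P s := by
  classical
  have := Fact.mk Nat.prime_three
  have p3 : IsPGroup 3 P := .of_card (n := 2) hP
  have cm : ∀ x ∈ P, ∀ y ∈ P, x * y = y * x := fun x hx y hy =>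
    congrArg Subtype.val ((IsPGroup.isMulCommutative_of_card_eq_prime_sq (p := 3) hP).is_comm.comm
      (⟨x, hx⟩ : P) ⟨y, hy⟩)
  obtain ⟨⟨a, ha⟩, oa⟩ := exists_prime_orderOf_dvd_card' (G := P) 3 (by rw [hP]; decide)
  have oa : orderOf a = 3 := (orderOf_coe (⟨a, ha⟩ : P)).trans oa
  obtain ⟨b, hb, ba⟩ : ∃ b ∈ P, b ∉ zpowers a := by
    by_contra! hh
    have := card_le_of_le (T := P) (U := zpowers a) hh
    rw [hP, Nat.card_zpowers, oa] at this
    omega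
  have ob : orderOf b = 3 := ord_three (h.cube_one p3 hb) fun e => ba (e ▸ one_mem _)
  let M := Multiplicative (ZMod 3)
  let e1 : M ≃* zpowers a := mulEquivOfPrimeCardEq (p := 3) (by simp [M]) (by
    rw [Nat.card_zpowers, oa])
  let e2 : M ≃* zpowers b := mulEquivOfPrimeCardEq (p := 3) (by simp [M]) (by
    rw [Nat.card_zpowers, ob])
  have la : zpowers a ≤ P := zpowers_le.2 ha
  have lb : zpowers b ≤ P := zpowers_le.2 hb
  let f : M × M →* G := ((zpowers a).subtype.comp e1.toMonoidHom).noncommCoprod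
    ((zpowers b).subtype.comp e2.toMonoidHom) fun x y => cm _ (la (e1 x).2) _ (lb (e2 y).2)
  have fe : ∀ x y, f (x, y) = (e1 x : G) * (e2 y : G) := fun x y => rfl
  have fi : Function.Injective f := (injective_iff_map_eq_one f).2 fun ⟨x, y⟩ hxy => by
    rw [fe] at hxy
    have h1 : (e2 y : G) ∈ zpowers a := by
      rw [eq_inv_of_mul_eq_one_right hxy]; exact inv_mem (e1 x).2
    have h2 : (e2 y : G) = 1 := by
      rcases mem_zpowers_three ob (e2 y).2 with e | e | e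
      · exact e
      · exact absurd (e ▸ h1) ba
      · exact absurd (inv_mem_iff.1 (e ▸ h1)) ba
    rw [h2, mul_one] at hxy
    rw [e1.map_eq_one_iff.1 (Subtype.ext hxy), e2.map_eq_one_iff.1 (Subtype.ext h2)]
    rfl
  have fr : f.range = P := eq_of_le_of_card_ge (by
    rintro _ ⟨⟨x, y⟩, rfl⟩
    exact mul_mem (la (e1 x).2) (lb (e2 y).2)) (by
    rw [hP, ← Nat.card_congr (MonoidHom.ofInjective fi).toEquiv]; simp [M])
  obtain ⟨t, t1, t2, t3⟩ := exists_lines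
  have m : ∀ k, f (t k) ∈ P := fun k => fr ▸ ⟨_, rfl⟩
  have o : ∀ k, orderOf (f (t k)) = 3 := fun k =>
    ord_three (h.cube_one p3 (m k)) fun e => t1 k (fi (e.trans (map_one f).symm))
  refine ⟨fun k => f (t k), h.syl hP, hP, cm, m, o, fun x hx => ?_, fun j k hjk hm => ?_⟩
  · obtain ⟨x, rfl⟩ : x ∈ f.range := fr ▸ hx
    rcases t2 x with rfl | ⟨k, rfl | rfl⟩
    · exact .inl (map_one f)
    · exact .inr ⟨k, .inl rfl⟩
    · exact .inr ⟨k, .inr (map_inv f _)⟩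
  · rcases mem_zpowers_three (o k) hm with e | e | e
    · exact ne_one_of_ord (o j) e
    · exact (t3 j k hjk).1 (fi e)
    · exact (t3 j k hjk).2 (fi (e.trans (map_inv f _).symm))

end Cfsg.Lib.T33
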