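import Cfsg.Statements.S3253
import Cfsg.Agent.Trans.SylowIn

/-!
# Groups whose centralizers of elements of order three are `3 × 3` or `3 × A₄`: definitions
-/

set_option autoImplicit false

namespace Cfsg.Lib.T33

open Subgroup Cfsg.Lib.Trans

universe u v

variable {G : Type u} [Group G]

/-- Centralizer of an element. -/
abbrev Cs (s : G) : Subgroup G := centralizer ({s} : Set G)

/-- Centralizer of a subgroup. -/
abbrev Ce (A : Subgroup G) : Subgroup G := centralizer (A : Set G)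

/-- Normalizer of a subgroup. -/
abbrev Nm (A : Subgroup G) : Subgroup G := normalizer (A : Set G)

/-- The subgroup generated by the involutions commuting with `s`. -/
def Vs (s : G) : Subgroup G := closure {g | g * s = s * g ∧ g * g = 1}

/-- Digest of the hypothesis: centralizers of elements of order three are `3 × 3` or `3 × A₄`. -/
structure Hy (G : Type u) [Group G] : Prop where
  mem : ∀ s : G, orderOf s = 3 → ∀ g, g ∈ Vs s ↔ g * s = s * g ∧ g * g = 1
  card : ∀ s : G, orderOf s = 3 → Vs s = ⊥ ∨ Nat.card (Vs s) = 4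
  cardC : ∀ s : G, orderOf s = 3 → Nat.card (Cs s) = 9 * Nat.card (Vs s)
  cube : ∀ s : G, orderOf s = 3 → ∀ g, g * s = s * g → g ^ 3 ∈ Vs s
  fpf : ∀ s r : G, orderOf s = 3 → orderOf r = 3 → r * s = s * r → r ∉ zpowers s →
    ∀ v ∈ Vs s, v * r = r * v → v = 1

/-- The conclusion of the theorem. -/
def Concl (G : Type u) [Group G] : Prop :=
  Nonempty (G ≃* ↥(alternatingGroup (Fin 6))) ∨ Nonempty (G ≃* ↥(alternatingGroup (Fin 7))) ∨
    (∃ (F : Type) (_ : Field F) (_ : Fintype F), (Fintype.card F = 4 ∨ Fintype.card F = 7) ∧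
      Nonempty (G ≃* Matrix.ProjectiveSpecialLinearGroup (Fin 3) F)) ∨
    (∃ (F : Type) (_ : Field F) (_ : Fintype F), Fintype.card F = 25 ∧
      Nonempty (G ≃* Cfsg.PSU 3 F 5)) ∨
    Cfsg.Spor.IsoM22 G

/-- An elementary abelian `2`-subgroup of order `n`. -/
structure El (A : Subgroup G) (n : ℕ) : Prop where
  sq : ∀ a ∈ A, a * a = 1
  card : Nat.card A = n

/-- A Sylow `3`-subgroup, elementary of order nine, with generators of its four lines. -/
structure Fr (P : Subgroup G) (s : Fin 4 → G) : Prop where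
  syl : IsSylowIn 3 P ⊤
  card : Nat.card P = 9
  comm : ∀ x ∈ P, ∀ y ∈ P, x * y = y * x
  mem : ∀ k, s k ∈ P
  ord : ∀ k, orderOf (s k) = 3
  cov : ∀ x ∈ P, x = 1 ∨ ∃ k, x = s k ∨ x = (s k)⁻¹
  ne : ∀ j k, j ≠ k → s j ∉ zpowers (s k)

/-- An involution inverting `P`. -/
structure Iv (P : Subgroup G) (i : G) : Prop where
  sq : i * i = 1
  inv : ∀ x ∈ P, i * x * i⁻¹ = x⁻¹

/-- An element of order four swapping the lines `0, 1` and the lines `2, 3`. -/
structure Sw (P : Subgroup G) (s : Fin 4 → G) (e : G) : Prop where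
  iv : Iv P (e * e)
  nrm : e ∈ Nm P
  s0 : e * s 0 * e⁻¹ ∈ zpowers (s 1)
  s1 : e * s 1 * e⁻¹ ∈ zpowers (s 0)
  s2 : e * s 2 * e⁻¹ ∈ zpowers (s 3)
  s3 : e * s 3 * e⁻¹ ∈ zpowers (s 2)

/-- The product of `V k` with the `V j` commuting with it. -/
def Q0 (s : Fin 4 → G) (k : Fin 4) : Subgroup G :=
  ⨆ j : {j : Fin 4 // Vs (s j) ≤ Ce (Vs (s k))}, Vs (s j)

/-- A self-centralizing `E₁₆` with `A₆` acting on it, the `3`-cycles without fixed points, and of
odd index in the automizer. -/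
structure Std (A N : Subgroup G) (ψ : N →* Equiv.Perm (Fin 6)) : Prop where
  el : El A 16
  cent : Ce A ≤ A
  le : A ≤ N
  nrm : N ≤ Nm A
  odd : ¬ 2 ∣ N.relIndex (Nm A)
  ker : ∀ g : N, ψ g = 1 ↔ (g : G) ∈ A
  range : ψ.range = alternatingGroup (Fin 6)
  fpf : ∀ g : N, (ψ g).IsThreeCycle → ∀ a ∈ A, a * g = g * a → a = 1

/-- The `E₁₆` is an isolated edge of the commuting graph. -/
structure K2D (A : Subgroup G) : Prop where
  k1 : ∀ s ∈ Nm A, orderOf s = 3 → A ⊓ Vs s ≠ ⊥ → Vs s ≤ A ∧ Ce (Vs s) ≤ A ⊔ zpowers s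
  k2 : ∀ s ∈ Nm A, orderOf s = 3 → A ⊓ Vs s = ⊥ → Vs s ≠ ⊥ → A ⊓ Ce (Vs s) = ⊥

/-- Fixed points of `x` under the action `ρ`. -/
def fx {X : Type u} {V : Type v} [Group X] [Group V] (ρ : X →* MulAut V) (x : X) : Subgroup V where
  carrier := {v | ρ x v = v}
  mul_mem' := fun {a b} (ha : ρ x a = a) (hb : ρ x b = b) => by
    change ρ x (a * b) = a * b
    rw [map_mul, ha, hb]
  one_mem' := map_one _
  inv_mem' := fun {a} (ha : ρ x a = a) => by
    change ρ x a⁻¹ = a⁻¹
    rw [map_inv, ha]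

theorem mem_fx {X : Type u} {V : Type v} [Group X] [Group V] {ρ : X →* MulAut V} {x : X} {v : V} :
    v ∈ fx ρ x ↔ ρ x v = v := Iff.rfl

/-- An action on `E₂₅₆` in which elements of order three fix four vectors and involutions inverting
them fix sixteen. -/
structure Act {X : Type u} {V : Type v} [Group X] [Group V] (ρ : X →* MulAut V) : Prop where
  sq : ∀ v : V, v * v = 1
  card : Nat.card V = 256
  fix3 : ∀ x : X, orderOf x = 3 → Nat.card (fx ρ x) = 4
  fix2 : ∀ j x : X, j * j = 1 → orderOf x = 3 → j * x * j⁻¹ = x⁻¹ → Nat.card (fx ρ j) = 16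

/-- The `3`-cycle `(0 1 2)`. -/
def c1 : Equiv.Perm (Fin 8) := Equiv.swap 0 1 * Equiv.swap 1 2

/-- The `3`-cycle `(3 4 5)`. -/
def c2 : Equiv.Perm (Fin 8) := Equiv.swap 3 4 * Equiv.swap 4 5

end Cfsg.Lib.T33
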