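import Cfsg.Agent.T33.Defs

/-!
# The icosahedral lemma; `L₃(4)` has no action on `E₂₅₆` of the given kind
-/

set_option autoImplicit false

namespace Cfsg.Lib.T33

open Subgroup Cfsg.Lib.Trans

universe u v

section Act
variable {X : Type u} {V : Type v} [Group X] [Group V] {ρ : X →* MulAut V}

namespace Ico

theorem finite (h : Act ρ) : Finite V := Nat.finite_of_card_ne_zero (by rw [h.card]; norm_num)

theorem comm (h : Act ρ) (u v : V) : u * v = v * u := by
  have h1 := h.sq (u * v)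
  have hu := h.sq u
  have hv := h.sq v
  calc u * v = (u * u) * (u * v) * (v * v) * (u * v * (u * v)) := by rw [hu, hv, h1]; simp
    _ = u * (u * u) * (v * v) * v * (u * v * (u * v)) := by simp only [mul_assoc]
    _ = u * v * (u * v * (u * v)) := by rw [hu, hv]; simp
    _ = (u * v * (u * v)) * (u * v) := by simp only [mul_assoc]
    _ = u * v := by rw [h1, one_mul]
    _ = (u * v)⁻¹ := by rw [eq_inv_iff_mul_eq_one, h1]
    _ = v * u := by rw [mul_inv_rev, inv_eq_of_mul_eq_one_right hu, inv_eq_of_mul_eq_one_right hv]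

theorem app_mul (x y : X) (v : V) : ρ (x * y) v = ρ x (ρ y v) := by rw [map_mul]; rfl

/-- The stabiliser of a vector. -/
def stb (ρ : X →* MulAut V) (v : V) : Subgroup X where
  carrier := {x | ρ x v = v}
  mul_mem' := fun {a b} (ha : ρ a v = v) (hb : ρ b v = v) => by
    change ρ (a * b) v = v
    rw [app_mul, hb, ha]
  one_mem' := by
    change ρ 1 v = v
    rw [map_one]; rfl
  inv_mem' := fun {a} (ha : ρ a v = v) => by
    change ρ a⁻¹ v = v
    conv_lhs => rw [← ha]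
    rw [← app_mul, inv_mul_cancel, map_one]; rfl

theorem mem_stb {v : V} {x : X} : x ∈ stb ρ v ↔ ρ x v = v := Iff.rfl

theorem modEq [Finite V] {p : ℕ} [Fact p.Prime] {y : X} (hy : y ^ p = 1) {D : Subgroup V}
    (hD : ∀ v ∈ D, ρ y v ∈ D) :
    Nat.card D ≡ Nat.card (D ⊓ fx ρ y : Subgroup V) [MOD p] := by
  classical
  have := Fintype.ofFinite D
  let f : Function.End D := fun v => ⟨ρ y v, hD v v.2⟩
  have hf : ∀ n : ℕ, ∀ v : D, ((f ^ n) v : V) = ρ (y ^ n) v := by
    intro n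
    induction n with
    | zero => intro v; rw [pow_zero, pow_zero, map_one]; rfl
    | succ n ih =>
      intro v
      rw [pow_succ', pow_succ', app_mul, ← ih]; rfl
  have h1 : f ^ p ^ 1 = 1 := by
    funext v
    apply Subtype.ext
    rw [pow_one, hf, hy, map_one]; rfl
  have h2 := Equiv.Perm.card_fixedPoints_modEq h1
  rw [← Nat.card_eq_fintype_card, ← Nat.card_eq_fintype_card] at h2
  have e : Nat.card f.fixedPoints = Nat.card (D ⊓ fx ρ y : Subgroup V) := by
    refine Nat.card_congr ⟨fun v => ⟨v.1.1, v.1.2, congrArg Subtype.val v.2⟩,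
      fun v => ⟨⟨v.1, v.2.1⟩, Subtype.ext v.2.2⟩, fun _ => rfl, fun _ => rfl⟩
  rwa [e] at h2

end Ico

open Ico

theorem Act.fpf5 (h : Act ρ) {a s : X} (ha : a * a = 1) (hs : orderOf s = 3)
    (h5 : orderOf (a * s) = 5) : fx ρ (a * s) = ⊥ := by
  have := finite h
  have : Fact (Nat.Prime 5) := ⟨by norm_num⟩
  have s3 : s * s * s = 1 := by
    have := pow_orderOf_eq_one s
    rw [hs] at this
    rw [← this, pow_succ, pow_two]
  have y5 : (a * s) ^ 5 = 1 := by rw [← h5]; exact pow_orderOf_eq_one _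
  have key : ∀ v ∈ fx ρ (a * s), v * (ρ s v * ρ (s * s) v) = 1 → v = 1 := by
    intro v hv e
    have h1 : a * s ∈ stb ρ v := hv
    have h2 : ρ a v = ρ s v := by
      conv_lhs => rw [← (show ρ (a * s) v = v from hv)]
      rw [← app_mul, ← mul_assoc, ha, one_mul]
    have h3 : ρ a (ρ s v) = v := by rw [← app_mul]; exact hv
    have h4 : ρ (s * s) v = v * ρ s v := by
      rw [← mul_assoc] at e
      rw [eq_inv_of_mul_eq_one_right e, inv_eq_of_mul_eq_one_right (h.sq _)]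
    have h6 : ρ a (ρ (s * s) v) = ρ (s * s) v := by
      rw [h4, map_mul, h2, h3, comm h]
    have h7 : s * (a * (s * s)) ∈ stb ρ v := by
      rw [mem_stb, app_mul, app_mul, h6, ← app_mul, ← mul_assoc, s3, map_one]; rfl
    have si : s⁻¹ = s * s := by rw [inv_eq_iff_mul_eq_one, ← mul_assoc, s3]
    have ai : a⁻¹ = a := inv_eq_of_mul_eq_one_right ha
    have h8 : (a * s⁻¹) ^ 2 ∈ stb ρ v := by
      have := mul_mem h1 h7
      rw [pow_two, si]
      simpa only [mul_assoc] using this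
    have h9 : (a * s⁻¹) ^ 5 = 1 := by
      have e1 : a * s⁻¹ = a * (a * s)⁻¹ * a⁻¹ := by
        rw [mul_inv_rev, ai, mul_assoc, mul_assoc, ha, mul_one]
      rw [e1, conj_pow, inv_pow, y5]; simp
    have h10 : a * s⁻¹ ∈ stb ρ v := by
      have := pow_mem h8 3
      rwa [← pow_mul, show 2 * 3 = 5 + 1 from rfl, pow_succ, h9, one_mul] at this
    have h11 : s ∈ stb ρ v := by
      have := mul_mem (inv_mem h10) h1
      have e1 : (a * s⁻¹)⁻¹ * (a * s) = s * s := by group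
      rw [e1, ← si] at this
      simpa using inv_mem this
    have h12 : ρ (s * s) v = v := mul_mem h11 h11
    rw [h12, show ρ s v = v from h11, h.sq, mul_one] at e
    exact e
  have mem : ∀ v : V, v * (ρ s v * ρ (s * s) v) ∈ fx ρ s := by
    intro v
    rw [mem_fx, map_mul, map_mul, ← app_mul, ← app_mul, ← mul_assoc s, s3, map_one]
    change ρ s v * (ρ (s * s) v * v) = _
    rw [← mul_assoc, comm h]
  have hle : Nat.card (fx ρ (a * s)) ≤ Nat.card (fx ρ s) := by
    refine Nat.card_le_card_of_injective (fun v => ⟨_, mem v.1⟩) ?_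
    intro u v e
    have e1 : u.1 * (ρ s u.1 * ρ (s * s) u.1) = v.1 * (ρ s v.1 * ρ (s * s) v.1) :=
      congrArg Subtype.val e
    have := key (u.1 * v.1) (mul_mem u.2 v.2) (by
      rw [map_mul, map_mul]
      let : CommGroup V := { (inferInstance : Group V) with mul_comm := comm h }
      rw [mul_mul_mul_comm (ρ s u.1), mul_mul_mul_comm u.1, e1, h.sq])
    apply Subtype.ext
    rw [eq_inv_of_mul_eq_one_left this, inv_eq_of_mul_eq_one_right (h.sq _)]
  have hm := modEq (ρ := ρ) y5 (D := ⊤) (fun _ _ => mem_top _)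
  rw [top_inf_eq, card_top, h.card] at hm
  rw [h.fix3 s hs] at hle
  have hp : 0 < Nat.card (fx ρ (a * s)) := Nat.card_pos
  rw [← card_eq_one]
  unfold Nat.ModEq at hm
  omega

namespace Ico

/-- The fixed points of a `2`-group normalised by an element of order five. -/
theorem big (h : Act ρ) {a s : X} (ha : a * a = 1) (hs : orderOf s = 3)
    (h5 : orderOf (a * s) = 5) {R : Subgroup X} (hR : IsPGroup 2 R)
    (hn : ∀ x ∈ R, ∃ x' ∈ R, x * (a * s) = a * s * x') :
    ∃ D : Subgroup V, 16 ≤ Nat.card D ∧ ∀ x ∈ R, D ≤ fx ρ x := by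
  have := finite h
  have : Fact (Nat.Prime 5) := ⟨by norm_num⟩
  refine ⟨⨅ x : R, fx ρ x, ?_, fun x hx => iInf_le (fun x : R => fx ρ x) ⟨x, hx⟩⟩
  set D : Subgroup V := ⨅ x : R, fx ρ x with hD
  have y5 : (a * s) ^ 5 = 1 := by rw [← h5]; exact pow_orderOf_eq_one _
  have hm := modEq (ρ := ρ) y5 (D := D) (by
    intro v hv
    rw [hD, mem_iInf] at hv ⊢
    intro x
    obtain ⟨x', hx', e⟩ := hn x x.2
    rw [mem_fx, ← app_mul, e, app_mul _ x', show ρ x' v = v from hv ⟨x', hx'⟩])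
  rw [h.fpf5 ha hs h5, inf_bot_eq, card_bot] at hm
  have h2 := (hR.map ρ).card_modEq_card_fixedPoints V
  have e : Nat.card (MulAction.fixedPoints (R.map ρ) V) = Nat.card D := by
    refine Nat.card_congr (Equiv.subtypeEquivRight fun v => ?_)
    rw [MulAction.mem_fixedPoints, hD, mem_iInf]
    constructor
    · intro H x
      exact H ⟨ρ x, mem_map_of_mem ρ x.2⟩
    · rintro H ⟨_, x, hx, rfl⟩
      exact H ⟨x, hx⟩
  rw [e, h.card] at h2
  have h3 := card_subgroup_dvd_card D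
  rw [h.card, show 256 = 2 ^ 8 from rfl, Nat.dvd_prime_pow Nat.prime_two] at h3
  obtain ⟨k, hk, e2⟩ := h3
  rw [e2] at hm h2 ⊢
  unfold Nat.ModEq at hm h2
  interval_cases k <;> omega

theorem sixteen (h : Act ρ) {j k : X} (hj : j * j = 1) (hk : k * k = 1)
    (h3 : orderOf (j * k) = 3) : Nat.card (fx ρ j) = 16 := by
  refine h.fix2 j (j * k) hj h3 ?_
  rw [← mul_assoc, hj, one_mul, mul_inv_rev, inv_eq_of_mul_eq_one_right hk]

theorem eq_of [Finite V] {D E : Subgroup V} (h1 : 16 ≤ Nat.card D) (h2 : Nat.card E = 16)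
    (le : D ≤ E) : D = E :=
  eq_of_le_of_card_ge le (by omega)

section SL
variable {F : Type} [Field F]

local notation "SL3" => Matrix.SpecialLinearGroup (Fin 3) F

theorem ord {π : SL3 →* X} (hπ : ∀ g, π g = 1 → g ∈ center SL3) {g : SL3} {p : ℕ} [Fact p.Prime]
    (h1 : g ^ p = 1) {i j : Fin 3} (ne : i ≠ j) (h2 : g.1 i j ≠ 0) : orderOf (π g) = p := by
  refine orderOf_eq_prime (by rw [← map_pow, h1, map_one]) fun e => h2 ?_
  obtain ⟨r, -, hr⟩ := Matrix.SpecialLinearGroup.mem_center_iff.1 (hπ g e)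
  rw [← hr]
  simp [Matrix.diagonal_apply_ne _ ne]

theorem bigSL (h : Act ρ) {π : SL3 →* X} (h2 : (2 : F) = 0) (r : F → F → SL3)
    (hr : ∀ b c b' c', r b c * r b' c' = r (b + b') (c + c')) (r0 : r 0 0 = 1) {a s : SL3}
    (ha : a * a = 1) (hs : orderOf (π s) = 3) (h5 : orderOf (π (a * s)) = 5)
    (hn : ∀ b c, ∃ b' c', r b c * (a * s) = a * s * r b' c') :
    ∃ D : Subgroup V, 16 ≤ Nat.card D ∧ ∀ b c, D ≤ fx ρ (π (r b c)) := by
  have sq : ∀ b c, r b c * r b c = 1 := by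
    intro b c
    rw [hr, ← two_mul, ← two_mul, h2, zero_mul, zero_mul, r0]
  let R : Subgroup X :=
    { carrier := {x | ∃ b c, x = π (r b c)}
      mul_mem' := by
        rintro _ _ ⟨b, c, rfl⟩ ⟨b', c', rfl⟩
        exact ⟨_, _, by rw [← map_mul, hr]⟩
      one_mem' := ⟨0, 0, by rw [r0, map_one]⟩
      inv_mem' := by
        rintro _ ⟨b, c, rfl⟩
        exact ⟨b, c, by rw [← map_inv, inv_eq_of_mul_eq_one_right (sq b c)]⟩ }
  have hR : IsPGroup 2 R := by
    rintro ⟨_, b, c, rfl⟩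
    refine ⟨1, Subtype.ext ?_⟩
    change π (r b c) ^ 2 ^ 1 = 1
    rw [pow_one, pow_two, ← map_mul, sq, map_one]
  obtain ⟨D, hD, le⟩ := big h (a := π a) (s := π s) (by rw [← map_mul, ha, map_one]) hs
    (by rw [← map_mul, h5]) hR (by
      rintro _ ⟨b, c, rfl⟩
      obtain ⟨b', c', e⟩ := hn b c
      exact ⟨_, ⟨b', c', rfl⟩, by simp only [← map_mul, e]⟩)
  exact ⟨D, hD, fun b c => le _ ⟨b, c, rfl⟩⟩

/-- Row group. -/
def r1 (b c : F) : SL3 := ⟨!![1, b, c; 0, 1, 0; 0, 0, 1], by simp [Matrix.det_fin_three]⟩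
/-- Row group. -/
def r2 (b c : F) : SL3 := ⟨!![1, 0, 0; b, 1, c; 0, 0, 1], by simp [Matrix.det_fin_three]⟩
/-- Row group. -/
def r3 (b c : F) : SL3 := ⟨!![1, 0, 0; 0, 1, 0; b, c, 1], by simp [Matrix.det_fin_three]⟩
/-- Column group. -/
def k3 (b c : F) : SL3 := ⟨!![1, 0, b; 0, 1, c; 0, 0, 1], by simp [Matrix.det_fin_three]⟩

theorem mul_eq {a b c : SL3} (h : a.1 * b.1 = c.1) : a * b = c := Subtype.ext h

theorem mul_eq' {a b c d : SL3} (h : a.1 * b.1 = c.1 * d.1) : a * b = c * d := Subtype.ext h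

theorem pow3 {s t : SL3} (h1 : s * s = t) (h2 : t * s = 1) : s ^ 3 = 1 := by
  rw [pow_succ, pow_two, h1, h2]

theorem pow5 {y t u : SL3} (h1 : y * y = t) (h2 : t * t = u) (h3 : u * y = 1) : y ^ 5 = 1 := by
  rw [pow_succ, show 4 = 2 * 2 from rfl, pow_mul, pow_two, pow_two, h1, h2, h3]

variable {w : F}

theorem row1 (h : Act ρ) {π : SL3 →* X} (hπ : ∀ g, π g = 1 → g ∈ center SL3) (h2 : (2 : F) = 0)
    (hw : w * w = w + 1) : ∃ D : Subgroup V, 16 ≤ Nat.card D ∧ ∀ b c, D ≤ fx ρ (π (r1 b c)) := by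
  have : Fact (Nat.Prime 5) := ⟨by norm_num⟩
  have w0 : w ≠ 0 := by rintro rfl; simp at hw
  let s : SL3 := ⟨!![1, 0, 0; 0, 0, w + 1; 0, w, 1], by simp [Matrix.det_fin_three]; grind⟩
  let t : SL3 := ⟨!![1, 0, 0; 0, 1, w + 1; 0, w, 0], by simp [Matrix.det_fin_three]; grind⟩
  let y : SL3 := ⟨!![1, 0, 0; 0, w, w; 0, w, 1], by simp [Matrix.det_fin_three]; grind⟩
  let y2 : SL3 := ⟨!![1, 0, 0; 0, 0, 1; 0, 1, w], by simp [Matrix.det_fin_three]; grind⟩
  let y4 : SL3 := ⟨!![1, 0, 0; 0, 1, w; 0, w, w], by simp [Matrix.det_fin_three]; grind⟩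
  have e : r2 0 1 * s = y := mul_eq (by simp [r2, s, y]; grind)
  refine bigSL h h2 r1 (fun b c b' c' => mul_eq (by simp [r1]; grind))
    (Subtype.ext (by simp [r1, Matrix.one_fin_three])) (a := r2 0 1) (s := s)
    (mul_eq (by simp [r2, Matrix.one_fin_three]; grind))
    (ord hπ (pow3 (t := t) (mul_eq (by simp [s, t]; grind))
      (mul_eq (by simp [s, t, Matrix.one_fin_three]; grind))) (i := 2) (j := 1) (by decide)
      (by simpa [s] using w0)) ?_ ?_
  · rw [e]
    exact ord hπ (pow5 (t := y2) (u := y4) (mul_eq (by simp [y, y2]; grind))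
      (mul_eq (by simp [y2, y4]; grind)) (mul_eq (by simp [y, y4, Matrix.one_fin_three]; grind)))
      (i := 2) (j := 1) (by decide) (by simpa [y] using w0)
  · intro b c
    rw [e]
    exact ⟨b * w + c * w, b * w + c, mul_eq' (by simp [r1, y])⟩

theorem row2 (h : Act ρ) {π : SL3 →* X} (hπ : ∀ g, π g = 1 → g ∈ center SL3) (h2 : (2 : F) = 0)
    (hw : w * w = w + 1) : ∃ D : Subgroup V, 16 ≤ Nat.card D ∧ ∀ b c, D ≤ fx ρ (π (r2 b c)) := by
  have : Fact (Nat.Prime 5) := ⟨by norm_num⟩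
  have w0 : w ≠ 0 := by rintro rfl; simp at hw
  let s : SL3 := ⟨!![0, 0, w + 1; 0, 1, 0; w, 0, 1], by simp [Matrix.det_fin_three]; grind⟩
  let t : SL3 := ⟨!![1, 0, w + 1; 0, 1, 0; w, 0, 0], by simp [Matrix.det_fin_three]; grind⟩
  let y : SL3 := ⟨!![w, 0, w; 0, 1, 0; w, 0, 1], by simp [Matrix.det_fin_three]; grind⟩
  let y2 : SL3 := ⟨!![0, 0, 1; 0, 1, 0; 1, 0, w], by simp [Matrix.det_fin_three]; grind⟩
  let y4 : SL3 := ⟨!![1, 0, w; 0, 1, 0; w, 0, w], by simp [Matrix.det_fin_three]; grind⟩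
  have e : r1 0 1 * s = y := mul_eq (by simp [r1, s, y]; grind)
  refine bigSL h h2 r2 (fun b c b' c' => mul_eq (by simp [r2]; grind))
    (Subtype.ext (by simp [r2, Matrix.one_fin_three])) (a := r1 0 1) (s := s)
    (mul_eq (by simp [r1, Matrix.one_fin_three]; grind))
    (ord hπ (pow3 (t := t) (mul_eq (by simp [s, t]; grind))
      (mul_eq (by simp [s, t, Matrix.one_fin_three]; grind))) (i := 2) (j := 0) (by decide)
      (by simpa [s] using w0)) ?_ ?_
  · rw [e]
    exact ord hπ (pow5 (t := y2) (u := y4) (mul_eq (by simp [y, y2]; grind))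
      (mul_eq (by simp [y2, y4]; grind)) (mul_eq (by simp [y, y4, Matrix.one_fin_three]; grind)))
      (i := 2) (j := 0) (by decide) (by simpa [y] using w0)
  · intro b c
    rw [e]
    exact ⟨b * w + c * w, b * w + c, mul_eq' (by simp [r2, y])⟩

theorem col3 (h : Act ρ) {π : SL3 →* X} (hπ : ∀ g, π g = 1 → g ∈ center SL3) (h2 : (2 : F) = 0)
    (hw : w * w = w + 1) : ∃ D : Subgroup V, 16 ≤ Nat.card D ∧ ∀ b c, D ≤ fx ρ (π (k3 b c)) := by
  have : Fact (Nat.Prime 5) := ⟨by norm_num⟩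
  have w0 : w ≠ 0 := by rintro rfl; simp at hw
  let s : SL3 := ⟨!![0, w + 1, 0; w, 1, 0; 0, 0, 1], by simp [Matrix.det_fin_three]; grind⟩
  let t : SL3 := ⟨!![1, w + 1, 0; w, 0, 0; 0, 0, 1], by simp [Matrix.det_fin_three]; grind⟩
  let y : SL3 := ⟨!![w, w, 0; w, 1, 0; 0, 0, 1], by simp [Matrix.det_fin_three]; grind⟩
  let y2 : SL3 := ⟨!![0, 1, 0; 1, w, 0; 0, 0, 1], by simp [Matrix.det_fin_three]; grind⟩
  let y4 : SL3 := ⟨!![1, w, 0; w, w, 0; 0, 0, 1], by simp [Matrix.det_fin_three]; grind⟩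
  have e : r1 1 0 * s = y := mul_eq (by simp [r1, s, y]; grind)
  refine bigSL h h2 k3 (fun b c b' c' => mul_eq (by simp [k3]; grind))
    (Subtype.ext (by simp [k3, Matrix.one_fin_three])) (a := r1 1 0) (s := s)
    (mul_eq (by simp [r1, Matrix.one_fin_three]; grind))
    (ord hπ (pow3 (t := t) (mul_eq (by simp [s, t]; grind))
      (mul_eq (by simp [s, t, Matrix.one_fin_three]; grind))) (i := 1) (j := 0) (by decide)
      (by simpa [s] using w0)) ?_ ?_
  · rw [e]
    exact ord hπ (pow5 (t := y2) (u := y4) (mul_eq (by simp [y, y2]; grind))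
      (mul_eq (by simp [y2, y4]; grind)) (mul_eq (by simp [y, y4, Matrix.one_fin_three]; grind)))
      (i := 1) (j := 0) (by decide) (by simpa [y] using w0)
  · intro b c
    rw [e]
    exact ⟨b + w * c, w * b + w * c, mul_eq' (by simp [k3, y]; grind)⟩

theorem exists_w [Fintype F] (hF : Fintype.card F = 4) :
    (2 : F) = 0 ∧ ∃ w : F, w * w = w + 1 := by
  classical
  have h2 : (2 : F) = 0 := by
    have h4 := FiniteField.cast_card_eq_zero F
    rw [hF] at h4
    have : (2 : F) * 2 = 0 := by rw [← h4]; norm_num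
    exact mul_self_eq_zero.1 this
  refine ⟨h2, ?_⟩
  obtain ⟨w, -, hw⟩ := Finset.exists_mem_notMem_of_card_lt_card
    (s := ({0, 1} : Finset F)) (t := Finset.univ)
    (lt_of_le_of_lt Finset.card_le_two (by rw [Finset.card_univ, hF]; norm_num))
  simp only [Finset.mem_insert, Finset.mem_singleton, not_or] at hw
  have h3 := FiniteField.pow_card_sub_one_eq_one w hw.1
  rw [hF] at h3
  have h4 : (w - 1) * (w * w - (w + 1)) = 0 := by
    have : w ^ 3 = 1 := h3
    grind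
  exact ⟨w, sub_eq_zero.1 ((mul_eq_zero.1 h4).resolve_left (sub_ne_zero.2 hw.2))⟩

theorem three {π : SL3 →* X} (hπ : ∀ g, π g = 1 → g ∈ center SL3) {j k t : SL3}
    (h1 : j * k * (j * k) = t) (h2 : t * (j * k) = 1) {a b : Fin 3} (ne : a ≠ b)
    (h3 : (j.1 * k.1) a b ≠ 0) : orderOf (π j * π k) = 3 := by
  rw [← map_mul]
  exact ord hπ (pow3 h1 h2) ne h3

theorem not_sl [Fintype F] (hF : Fintype.card F = 4) (h : Act ρ) {π : SL3 →* X}
    (hπ : ∀ g, π g = 1 → g ∈ center SL3) : False := by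
  have := finite h
  obtain ⟨h2, w, hw⟩ := exists_w hF
  obtain ⟨D1, c1, l1⟩ := row1 h hπ h2 hw
  obtain ⟨D2, c2, l2⟩ := row2 h hπ h2 hw
  obtain ⟨D3, c3, l3⟩ := col3 h hπ h2 hw
  have sq : ∀ {g : SL3}, g.1 * g.1 = 1 → π g * π g = 1 := fun {g} e => by
    rw [← map_mul, show g * g = 1 from mul_eq e, map_one]
  have o3 : ∀ j k : SL3, j.1 * k.1 * (j.1 * k.1) * (j.1 * k.1) = 1 → ∀ a b : Fin 3, a ≠ b →
      (j.1 * k.1) a b ≠ 0 → orderOf (π j * π k) = 3 := fun j k e a b ne h3 =>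
    three hπ rfl (Subtype.ext e) ne h3
  have f13 : Nat.card (fx ρ (π (r1 0 1))) = 16 :=
    sixteen h (k := π (r3 1 0)) (sq (by simp [r1, Matrix.one_fin_three]; grind))
      (sq (by simp [r3, Matrix.one_fin_three]; grind))
      (o3 _ _ (by simp [r1, r3, Matrix.one_fin_three]; grind) 0 2 (by decide) (by simp [r1, r3]))
  have f23 : Nat.card (fx ρ (π (r2 0 1))) = 16 :=
    sixteen h (k := π (r3 0 1)) (sq (by simp [r2, Matrix.one_fin_three]; grind))
      (sq (by simp [r3, Matrix.one_fin_three]; grind))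
      (o3 _ _ (by simp [r2, r3, Matrix.one_fin_three]; grind) 1 2 (by decide) (by simp [r2, r3]))
  have e1 : D1 = D3 := (eq_of c1 f13 (l1 0 1)).trans (eq_of c3 f13 (l3 1 0)).symm
  have e2 : D2 = D3 := (eq_of c2 f23 (l2 0 1)).trans (eq_of c3 f23 (l3 0 1)).symm
  have o := o3 (r1 1 0) (r2 1 0) (by simp [r1, r2, Matrix.one_fin_three]; grind) 0 1 (by decide)
    (by simp [r1, r2])
  have le : D3 ≤ fx ρ (π (r1 1 0) * π (r2 1 0)) := fun v hv => by
    rw [mem_fx, app_mul, show ρ (π (r2 1 0)) v = v from l2 1 0 (e2 ▸ hv)]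
    exact l1 1 0 (e1 ▸ hv)
  have := Subgroup.card_le_of_le le
  rw [h.fix3 _ o] at this
  omega

end SL

end Ico

theorem Act.not_psl {F : Type} [Field F] [Fintype F] (hF : Fintype.card F = 4)
    {ρ : Matrix.ProjectiveSpecialLinearGroup (Fin 3) F →* MulAut V} : ¬ Act ρ := fun h =>
  not_sl hF h (π := QuotientGroup.mk' _) fun _ e => (QuotientGroup.eq_one_iff _).1 e

end Act

end Cfsg.Lib.T33
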