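import Cfsg.Agent.T33.Defs

/-! Two lemmas on subgroups of `A₈` containing `(0 1 2)` and `(3 4 5)`. -/

set_option autoImplicit false
set_option maxRecDepth 100000
set_option synthInstance.maxSize 2000

namespace Cfsg.Lib.T33

open Subgroup Equiv Equiv.Perm

namespace P8

attribute [local instance 2000] List.decidableBAll List.decidableBEx

/-- The `3`-cycle `(a b c)`. -/
def tc {α : Type*} [DecidableEq α] (a b c : α) : Perm α := swap a b * swap b c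

theorem tc_eq_1 : type_of% @tc.eq_1 := @tc.eq_1

theorem tc_conj {α : Type*} [DecidableEq α] (g : Perm α) (a b c : α) :
    tc (g a) (g b) (g c) = g * tc a b c * g⁻¹ := by
  simp [tc, swap_apply_apply, mul_assoc]

theorem mem_of_tc {α : Type*} [Fintype α] [DecidableEq α] {X : Subgroup (Perm α)} {Ω : α → Prop}
    (h : ∀ a b c, Ω a → Ω b → Ω c → a ≠ b → a ≠ c → b ≠ c → tc a b c ∈ X) (g : Perm α)
    (hs : sign g = 1) (hΩ : ∀ x, g x ≠ x → Ω x) : g ∈ X := by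
  induction' hn : g.support.card using Nat.strong_induction_on with n ih generalizing g
  by_cases h1 : g = 1
  · exact h1 ▸ one_mem X
  have h2 : 2 < g.support.card := (two_le_card_support_of_ne_one h1).lt_of_ne fun e => by
    rw [(card_support_eq_two.1 e.symm).sign_eq] at hs; exact absurd hs (by decide)
  obtain ⟨x, hx⟩ := Finset.card_pos.1 (by omega : 0 < g.support.card)
  obtain ⟨y, hy, hy'⟩ := Finset.exists_mem_notMem_of_card_lt_card (s := {x, g x}) (t := g.support)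
    (Finset.card_le_two.trans_lt h2)
  simp only [Finset.mem_insert, Finset.mem_singleton, not_or] at hy'
  have hgx := apply_mem_support.2 hx
  have k := h (g x) x y (hΩ _ (mem_support.1 hgx)) (hΩ _ (mem_support.1 hx))
    (hΩ _ (mem_support.1 hy)) (mem_support.1 hx) (Ne.symm hy'.2) (Ne.symm hy'.1)
  have sub : (tc (g x) x y * g).support ⊆ g.support.erase x := fun z hz => by
    rw [mem_support, mul_apply, tc, mul_apply] at hz
    refine Finset.mem_erase.2 ⟨?_, by_contra fun e => hz ?_⟩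
    · rintro rfl
      exact hz (by rw [swap_apply_of_ne_of_ne (mem_support.1 hx) (Ne.symm hy'.2), swap_apply_left])
    · have a : ∀ w ∈ g.support, z ≠ w := fun w hw e' => e (e' ▸ hw)
      rw [notMem_support.1 e, swap_apply_of_ne_of_ne (a _ hx) (a _ hy),
        swap_apply_of_ne_of_ne (a _ hgx) (a _ hx)]
  refine (mul_mem_cancel_left k).1 (ih _ (hn ▸ (Finset.card_le_card sub).trans_lt
    (Finset.card_erase_lt_of_mem hx)) _ ?_ (fun z hz => hΩ z (mem_support.1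
      (Finset.mem_of_mem_erase (sub (mem_support.2 hz))))) rfl)
  rw [map_mul, hs, tc, map_mul, sign_swap (mem_support.1 hx), sign_swap (Ne.symm hy'.1)]; simp

/-- Generators of the alternating group. -/
def sg (y : Fin 8) : Perm (Fin 8) := if y = 0 then 1 else swap 0 1 * swap 0 y

theorem sg_eq_1 : type_of% @sg.eq_1 := @sg.eq_1

theorem words : ∀ a b c : Fin 8, a ≠ b → a ≠ c → b ≠ c →
    tc a b c = (sg a)⁻¹ * sg b * (sg a)⁻¹ * sg b * (sg c)⁻¹ * sg b ∨ tc a b c = (sg c)⁻¹ * sg b ∨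
      tc a b c = (sg a)⁻¹ * sg c ∨ tc a b c = (sg b)⁻¹ * sg a := by decide +kernel

theorem sg_eq : ∀ y : Fin 8, y = 0 ∨ y = 1 ∨ sg y = (tc 0 1 y)⁻¹ := by decide +kernel

variable {X : Subgroup (Perm (Fin 8))}

theorem mem_alt {Ω : Fin 8 → Prop} (h : ∀ y, Ω y → y ≠ 0 → y ≠ 1 → tc 0 1 y ∈ X)
    (g : Perm (Fin 8)) (hs : sign g = 1) (hΩ : ∀ x, g x ≠ x → Ω x) : g ∈ X := by
  have k : ∀ y, Ω y → sg y ∈ X := fun y hy => by
    by_cases h0 : y = 0
    · rw [h0, show sg 0 = 1 by decide +kernel]; exact one_mem X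
    by_cases h1 : y = 1
    · rw [h1, show sg 1 = 1 by decide +kernel]; exact one_mem X
    rw [((sg_eq y).resolve_left h0).resolve_left h1]; exact inv_mem (h y hy h0 h1)
  refine mem_of_tc (fun a b c ha hb hc n1 n2 n3 => ?_) g hs hΩ
  have := k a ha; have := k b hb; have := k c hc
  rcases words a b c n1 n2 n3 with e | e | e | e <;> rw [e] <;>
    repeat' first | assumption | apply mul_mem | apply inv_mem

/-- The elements of `⟨c₁, c₂⟩`. -/
def L9 : List (Perm (Fin 8)) :=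
  [1, c1, c1⁻¹, c2, c1 * c2, c1⁻¹ * c2, c2⁻¹, c1 * c2⁻¹, c1⁻¹ * c2⁻¹]

theorem L9_eq_1 : type_of% @L9.eq_1 := @L9.eq_1

theorem L9_mem (h1 : c1 ∈ X) (h2 : c2 ∈ X) : ∀ p ∈ L9, p ∈ X := by
  simp only [L9, List.mem_cons, List.not_mem_nil, or_false, forall_eq_or_imp, forall_eq, mul_mem,
    one_mem, inv_mem, h1, h2, and_self]

theorem d1 : ∀ a b c : Fin 8, a ≠ b → a ≠ c → b ≠ c → (a < 6 ∧ b < 6 ∧ c < 6) ∨
    ∃ w ∈ [tc a b c, tc a b c * c1 * (tc a b c)⁻¹, (tc a b c)⁻¹ * c1 * tc a b c],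
      ¬ (w 6 = 6 ∧ w 7 = 7) ∧ (w * c1 = c1 * w ∨ w * c2 = c2 * w) := by decide +kernel

theorem d2 : ∀ a b c : Fin 8, a < 6 → b < 6 → c < 6 → a ≠ b → a ≠ c → b ≠ c → tc a b c ∈ L9 ∨
    ∃ w ∈ [(a, b, c), (tc a b c 0, tc a b c 1, tc a b c 2)], ∃ p ∈ L9,
      tc (p w.1) (p w.2.1) (p w.2.2) = tc 0 1 3 ∨ tc (p w.1) (p w.2.1) (p w.2.2) = (tc 0 1 3)⁻¹ := by
  decide +kernel

theorem tc_mem {g : Perm (Fin 8)} (hg : g ∈ X) {a b c : Fin 8} (h : tc a b c ∈ X) :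
    tc (g a) (g b) (g c) ∈ X := by
  rw [tc_conj]; exact mul_mem (mul_mem hg h) (inv_mem hg)

theorem fix67 {g : Perm (Fin 8)} (hg : g ∈ closure {c1, c2}) : g 6 = 6 ∧ g 7 = 7 := by
  induction hg using closure_induction with
  | mem x hx => rcases hx with rfl | rfl <;> decide +kernel
  | one => exact ⟨rfl, rfl⟩
  | mul x y _ _ hx hy => simp [hx, hy]
  | inv x _ hx => exact ⟨inv_eq_iff_eq.2 hx.1.symm, inv_eq_iff_eq.2 hx.2.symm⟩

/-- The involutions of the alternating group on `3, 4, 5, k`. -/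
def U (k : Fin 8) : List (Perm (Fin 8)) :=
  [swap 3 4 * swap 5 k, swap 3 5 * swap 4 k, swap 4 5 * swap 3 k]

theorem U_eq_1 : type_of% @U.eq_1 := @U.eq_1

/-- A function on `Fin 8` fixing `0, 1, 2`. -/
def fn (a b c d e x : Fin 8) : Fin 8 :=
  if x = 3 then a else if x = 4 then b else if x = 5 then c else if x = 6 then d
  else if x = 7 then e else x

theorem fn_eq_1 : type_of% @fn.eq_1 := @fn.eq_1

theorem d3 : ∀ a : Fin 8, 3 ≤ a → ∀ b, 3 ≤ b → ∀ c, 3 ≤ c → ∀ d, 3 ≤ d → ∀ e, 3 ≤ e →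
    (∀ x, fn a b c d e (fn a b c d e x) = x) →
    (∀ x, fn a b c d e (c2 x) = c2 (fn a b c d e x)) ∨
    (∃ x, fn a b c d e (c2 (fn a b c d e (c2⁻¹ x))) ≠ c2 (fn a b c d e (c2⁻¹ (fn a b c d e x)))) ∨
      ∃ k ∈ [6, 7], ∃ w ∈ U k, ∀ x, w x = fn a b c d e x := by decide +kernel

theorem d0 : ∀ a b : Fin 8, a ≠ b → b = c1 a → (a = 1 → b = 0) → (a = 2 → c1 b = 0) → a = 0 := by
  decide +kernel

theorem cls {u : Perm (Fin 8)} (u2 : u * u = 1) (uc : u * c1 = c1 * u) (un : u * c2 ≠ c2 * u)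
    (uu : u * (c2 * u * c2⁻¹) = c2 * u * c2⁻¹ * u) : ∃ k ∈ [6, 7], u ∈ U k := by
  have i : ∀ x, u (u x) = x := fun x => DFunLike.congr_fun u2 x
  have a1 : u 1 = c1 (u 0) := DFunLike.congr_fun uc 0
  have a2 : u 2 = c1 (u 1) := DFunLike.congr_fun uc 1
  have b0 : u 0 = 0 := d0 _ _ (u.injective.ne (by decide)) a1 (fun e => by rw [← e, i])
    fun e => by rw [← a2, ← e, i]
  have b1 : u 1 = 1 := by rw [a1, b0]; decide +kernel
  have b2 : u 2 = 2 := by rw [a2, b1]; decide +kernel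
  have e : ∀ x, fn (u 3) (u 4) (u 5) (u 6) (u 7) x = u x := fun x => by
    fin_cases x <;> first | rfl | exact b0.symm | exact b1.symm | exact b2.symm
  have g : ∀ x, 3 ≤ x → 3 ≤ u x := fun x hx => by
    have k : ∀ y : Fin 8, 3 ≤ y ∨ y = 0 ∨ y = 1 ∨ y = 2 := by decide
    rcases k (u x) with a | a | a | a
    exacts [a, absurd (u.injective (a.trans b0.symm) ▸ hx) (by decide),
      absurd (u.injective (a.trans b1.symm) ▸ hx) (by decide),
      absurd (u.injective (a.trans b2.symm) ▸ hx) (by decide)]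
  have := d3 _ (g 3 (by decide)) _ (g 4 (by decide)) _ (g 5 (by decide)) _ (g 6 (by decide)) _
    (g 7 (by decide)) (by simpa only [e] using i)
  simp only [e] at this
  rcases this with a | ⟨x, a⟩ | ⟨k, hk, w, hw, a⟩
  exacts [absurd (Equiv.ext a) un, absurd (DFunLike.congr_fun uu x) a,
    ⟨k, hk, (Equiv.ext a : w = u) ▸ hw⟩]

/-- An involution exchanging `c₁` and `c₂`. -/
def τ : Perm (Fin 8) := swap 0 3 * swap 1 4 * swap 2 5

theorem τ_eq_1 : type_of% @τ.eq_1 := @τ.eq_1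

/-- The involutions of the alternating group on `0, 1, 2, k`. -/
def V (k : Fin 8) : List (Perm (Fin 8)) :=
  [swap 0 1 * swap 2 k, swap 0 2 * swap 1 k, swap 1 2 * swap 0 k]

theorem V_eq_1 : type_of% @V.eq_1 := @V.eq_1

theorem d4 : ∀ k ∈ [(6 : Fin 8), 7], (∀ w ∈ U k, τ⁻¹ * w * τ ∈ V k ∧
    (∃ p ∈ [1, c2, c2⁻¹], ∃ q ∈ [1, c2, c2⁻¹], tc 3 4 k = p * w * q) ∧
    ∀ k' ∈ [(6 : Fin 8), 7], ∀ w' ∈ V k', k = k' ∨ w * w' = w' * w) ∧
    ∀ w ∈ V k, ∃ p ∈ [1, c1, c1⁻¹], ∃ q ∈ [1, c1, c1⁻¹], tc 0 1 k = p * w * q := by decide +kernel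

/-- Elements of `A₈` commuting with `c₁`. -/
def L37 : List (Perm (Fin 8)) :=
  [1, c1, c1⁻¹].flatMap fun p => [1, tc 3 4 5, tc 3 4 6, tc 3 4 7, tc 3 5 6, tc 3 5 7, tc 3 6 7,
    tc 4 5 6, tc 4 5 7, tc 4 6 7, tc 5 6 7, tc 4 3 5, tc 4 3 6].map (p * ·)

theorem L37_eq_1 : type_of% @L37.eq_1 := @L37.eq_1

theorem d5 : L37.length = 39 ∧ ∀ p ∈ L37, p * c1 = c1 * p := by decide +kernel

theorem d7 : L37.Nodup := by
  have : L37.map (fun p => (p 0).1 + 8 * (p 3).1 + 64 * (p 4).1 + 512 * (p 5).1 + 4096 * (p 6).1) =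
      [27416, 26464, 15264, 27616, 15656, 28456, 31536, 19800, 28504, 31640, 32024, 26856,
      19184, 27417, 26465, 15265, 27617, 15657, 28457, 31537, 19801, 28505, 31641, 32025, 26857,
      19185, 27418, 26466, 15266, 27618, 15658, 28458, 31538, 19802, 28506, 31642, 32026, 26858,
      19186] := by decide +kernel
  exact .of_map _ (by rw [this]; decide +kernel)

theorem c1_eq_1 : type_of% @c1.eq_1 := @c1.eq_1

theorem d6 : ∀ p ∈ L37, sign p = 1 := by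
  simp [L37, tc, c1]

theorem d8 : ∀ y : Fin 8, y ≠ 6 → y ≠ 7 → y ≠ 0 → y ≠ 1 → y = 2 ∨ y = 3 ∨ y = 4 ∨ y = 5 := by decide

theorem d9 : ∀ y : Fin 8, y < 6 → y = 0 ∨ y = 1 ∨ y = 2 ∨ y = 3 ∨ y = 4 ∨ y = 5 := by decide

theorem fin_p (h1 : c1 ∈ X) (h2 : c2 ∈ X) (k1 : Nat.card (X ⊓ Cs c1 : Subgroup _) ≤ 36)
    (hX : ∀ g ∈ X, sign g = 1) {k l : Fin 8} (hk : k = 6 ∧ l = 7 ∨ k = 7 ∧ l = 6)
    (a : tc 3 4 k ∈ X) (b : tc 0 1 k ∈ X) (g : Perm (Fin 8)) : g ∈ X ↔ sign g = 1 ∧ g l = l := by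
  have t3 : tc 0 1 3 ∈ X := by
    have := tc_mem a b
    rcases hk with ⟨rfl, -⟩ | ⟨rfl, -⟩ <;> exact this
  have t4 : tc 0 1 4 ∈ X := tc_mem h2 t3
  have t5 : tc 0 1 5 ∈ X := tc_mem h2 t4
  have hy : ∀ y : Fin 8, y = 0 ∨ y = 1 ∨ y = 2 ∨ y = 3 ∨ y = 4 ∨ y = 5 ∨ y = k ∨ y = l := by
    rcases hk with ⟨rfl, rfl⟩ | ⟨rfl, rfl⟩ <;> decide
  have k0 : ∀ y, y ≠ l → y ≠ 0 → y ≠ 1 → tc 0 1 y ∈ X := fun y n n0 n1 => by
    rcases hy y with e | e | e | e | e | e | e | e <;> subst e <;> first | contradiction | assumption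
  have al : ∀ g, sign g = 1 → g l = l → g ∈ X := fun g s e =>
    mem_alt k0 g s fun x n e' => n (e' ▸ e)
  refine ⟨fun hg => ⟨hX g hg, by_contra fun n => ?_⟩, fun h => al g h.1 h.2⟩
  obtain ⟨p, hp, n0, n1, n2⟩ : ∃ p ∈ L9, p (g l) ≠ 0 ∧ p (g l) ≠ 1 ∧ p (g l) ≠ l := by
    revert n
    generalize g l = j
    revert j
    rcases hk with ⟨-, rfl⟩ | ⟨-, rfl⟩ <;> decide +kernel
  have hg' := mul_mem (L9_mem h1 h2 p hp) hg
  have l01 : l ≠ 0 ∧ l ≠ 1 := by rcases hk with ⟨-, rfl⟩ | ⟨-, rfl⟩ <;> decide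
  have tl : tc 0 1 l ∈ X := by
    have : (p * g)⁻¹ * tc 0 1 l * (p * g) ∈ X := al _ (by
      rw [map_mul, map_mul, tc, map_mul sign (swap _ _), sign_swap (by decide), sign_swap l01.2.symm,
        hX _ hg', hX _ (inv_mem hg')]; simp) (by
      rw [mul_apply, mul_apply, tc, mul_apply, mul_apply p g, swap_apply_of_ne_of_ne n1 n2,
        swap_apply_of_ne_of_ne n0 n1, ← mul_apply p g, inv_eq_iff_eq])
    exact (mul_mem_cancel_left (inv_mem hg')).1 ((mul_mem_cancel_right hg').1 this)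
  have all : ∀ g, sign g = 1 → g ∈ X := fun g s => mem_alt (Ω := fun _ => True) (fun y _ n0 n1 => by
    by_cases e : y = l
    exacts [e ▸ tl, k0 y e n0 n1]) g s fun _ _ => trivial
  have : L37.toFinset.card ≤ Nat.card (X ⊓ Cs c1 : Subgroup _) := by
    rw [← Set.ncard_coe_finset]
    exact Set.ncard_le_ncard (t := ((X ⊓ Cs c1 : Subgroup _) : Set (Perm (Fin 8)))) fun p hp =>
      have hp : p ∈ L37 := List.mem_toFinset.1 (Finset.mem_coe.1 hp)
      ⟨all p (d6 p hp), mem_centralizer_singleton_iff.2 (d5.2 p hp)⟩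
  rw [List.toFinset_card_of_nodup d7, d5.1] at this
  omega

end P8

open P8

theorem perm_k {X : Subgroup (Equiv.Perm (Fin 8))} (hX : ∀ g ∈ X, Equiv.Perm.sign g = 1)
    (h1 : c1 ∈ X) (h2 : c2 ∈ X) (k1 : ∀ g ∈ X, g * c1 = c1 * g → g ∈ closure {c1, c2})
    (k2 : ∀ g ∈ X, g * c2 = c2 * g → g ∈ closure {c1, c2}) :
    X ≤ Nm (closure {c1, c2}) ∨ ∀ g, g ∈ X ↔ Equiv.Perm.sign g = 1 ∧ g 6 = 6 ∧ g 7 = 7 := by
  have s1 : ∀ a b c, a ≠ b → a ≠ c → b ≠ c → tc a b c ∈ X → a < 6 ∧ b < 6 ∧ c < 6 :=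
    fun a b c n1 n2 n3 h => (d1 a b c n1 n2 n3).resolve_right fun ⟨w, hw, n, e⟩ => by
      have : w ∈ X := by
        simp only [List.mem_cons, List.not_mem_nil, or_false] at hw
        rcases hw with rfl | rfl | rfl
        exacts [h, mul_mem (mul_mem h h1) (inv_mem h), mul_mem (mul_mem (inv_mem h) h1) h]
      exact n (fix67 (e.elim (k1 w this) (k2 w this)))
  have t1 : ∀ g ∈ X, tc (g 0) (g 1) (g 2) ∈ X := fun g hg => tc_mem hg h1
  have t2 : ∀ g ∈ X, tc (g 3) (g 4) (g 5) ∈ X := fun g hg => tc_mem hg h2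
  have ne : ∀ (g : Perm (Fin 8)) {a b}, a ≠ b → g a ≠ g b := fun g _ _ => g.injective.ne
  by_cases t3 : tc 0 1 3 ∈ X
  · right
    have t4 : tc 0 1 4 ∈ X := tc_mem h2 t3
    have t5 : tc 0 1 5 ∈ X := tc_mem h2 t4
    have al : ∀ g, sign g = 1 → g 6 = 6 → g 7 = 7 → g ∈ X := fun g s e6 e7 =>
      mem_alt (Ω := fun y => y ≠ 6 ∧ y ≠ 7) (fun y n n0 n1 => by
        rcases d8 y n.1 n.2 n0 n1 with rfl | rfl | rfl | rfl
        exacts [h1, t3, t4, t5]) g s fun x n => ⟨fun e => n (e ▸ e6), fun e => n (e ▸ e7)⟩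
    refine fun g => ⟨fun hg => ⟨hX g hg, ?_⟩, fun h => al g h.1 h.2.1 h.2.2⟩
    have lt : ∀ x, x < 6 → g⁻¹ x < 6 := fun x hx => by
      obtain ⟨a0, a1, a2⟩ := s1 _ _ _ (ne _ (by decide)) (ne _ (by decide)) (ne _ (by decide))
        (t1 _ (inv_mem hg))
      obtain ⟨a3, a4, a5⟩ := s1 _ _ _ (ne _ (by decide)) (ne _ (by decide)) (ne _ (by decide))
        (t2 _ (inv_mem hg))
      rcases d9 x hx with rfl | rfl | rfl | rfl | rfl | rfl <;> assumption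
    have k : ∀ y : Fin 8, y < 6 ∨ y = 6 ∨ y = 7 := by decide
    have a6 := (k (g 6)).resolve_left fun e => by simpa using lt _ e
    have a7 := (k (g 7)).resolve_left fun e => by simpa using lt _ e
    have n := ne g (show (6 : Fin 8) ≠ 7 by decide)
    rcases a6 with a6 | a6 <;> rcases a7 with a7 | a7
    · exact absurd (a6.trans a7.symm) n
    · exact ⟨a6, a7⟩
    · have := (mul_mem_cancel_left hg).1 (al (g * (swap 3 4 * swap 6 7)) (by simp [hX g hg])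
        a7 a6)
      exact absurd (fix67 (k1 _ this (by decide +kernel))) (by decide +kernel)
    · exact absurd (a6.trans a7.symm) n
  · left
    have p1 : c1 ∈ closure {c1, c2} := subset_closure (by simp)
    have p2 : c2 ∈ closure {c1, c2} := subset_closure (by simp)
    have s2 : ∀ a b c, a ≠ b → a ≠ c → b ≠ c → tc a b c ∈ X → tc a b c ∈ closure {c1, c2} :=
      fun a b c n1 n2 n3 h => by
        obtain ⟨a1, a2, a3⟩ := s1 a b c n1 n2 n3 h
        refine L9_mem p1 p2 _ ((d2 a b c a1 a2 a3 n1 n2 n3).resolve_right fun ⟨w, hw, p, hp, e⟩ => ?_)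
        have : tc w.1 w.2.1 w.2.2 ∈ X := by
          simp only [List.mem_cons, List.not_mem_nil, or_false] at hw
          rcases hw with rfl | rfl
          exacts [h, t1 _ h]
        have := tc_mem (L9_mem h1 h2 p hp) this
        rcases e with e | e <;> rw [e] at this
        exacts [t3 this, t3 (inv_mem_iff.1 this)]
    refine fun g hg => mem_normalizer_fintype fun n hn => ?_
    induction hn using closure_induction with
    | mem x hx =>
      rcases hx with rfl | rfl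
      · exact tc_conj g 0 1 2 ▸ s2 _ _ _ (ne _ (by decide)) (ne _ (by decide)) (ne _ (by decide))
          (t1 g hg)
      · exact tc_conj g 3 4 5 ▸ s2 _ _ _ (ne _ (by decide)) (ne _ (by decide)) (ne _ (by decide))
          (t2 g hg)
    | one => simp
    | mul x y _ _ hx hy => rw [← conj_mul]; exact mul_mem hx hy
    | inv x _ hx => rw [← conj_inv]; exact inv_mem hx

theorem perm_p {X : Subgroup (Equiv.Perm (Fin 8))} (hX : ∀ g ∈ X, Equiv.Perm.sign g = 1)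
    (h1 : c1 ∈ X) (h2 : c2 ∈ X) (k1 : Nat.card (X ⊓ Cs c1 : Subgroup _) ≤ 36)
    {u v : Equiv.Perm (Fin 8)} (hu : u ∈ X) (hv : v ∈ X) (u2 : u * u = 1) (v2 : v * v = 1)
    (uc : u * c1 = c1 * u) (vc : v * c2 = c2 * v) (un : u * c2 ≠ c2 * u) (vn : v * c1 ≠ c1 * v)
    (uu : u * (c2 * u * c2⁻¹) = c2 * u * c2⁻¹ * u) (vv : v * (c1 * v * c1⁻¹) = c1 * v * c1⁻¹ * v)
    (huv : u * v ≠ v * u) :
    (∀ g, g ∈ X ↔ Equiv.Perm.sign g = 1 ∧ g 7 = 7) ∨
      ∀ g, g ∈ X ↔ Equiv.Perm.sign g = 1 ∧ g 6 = 6 := by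
  obtain ⟨k, hk, hw⟩ := cls u2 uc un uu
  have e1 : c1 = τ * c2 * τ⁻¹ := by decide +kernel
  have e2 : c2 = τ * c1 * τ⁻¹ := by decide +kernel
  obtain ⟨k', hk', hw'⟩ := cls (u := τ * v * τ⁻¹) (by rw [conj_mul, v2]; simp)
    (by rw [e1, conj_mul, conj_mul, vc]) (by rw [e2, conj_mul, conj_mul]; simpa using vn)
    (by rw [e2, conj_inv]; simp only [conj_mul, vv])
  have ev : τ⁻¹ * (τ * v * τ⁻¹) * τ = v := by group
  obtain ⟨-, ⟨p, hp, q, hq, a⟩, b⟩ := (d4 k hk).1 u hw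
  have hv' := ev ▸ ((d4 k' hk').1 _ hw').1
  obtain rfl := (b k' hk' _ hv').resolve_right huv
  obtain ⟨p', hp', q', hq', a'⟩ := (d4 k hk).2 _ hv'
  have m : ∀ {c}, c ∈ X → ∀ {x}, x ∈ [1, c, c⁻¹] → x ∈ X := fun hc x hx => by
    simp only [List.mem_cons, List.not_mem_nil, or_false] at hx
    rcases hx with rfl | rfl | rfl
    exacts [one_mem X, hc, inv_mem hc]
  have m1 : tc 3 4 k ∈ X := a ▸ mul_mem (mul_mem (m h2 hp) hu) (m h2 hq)
  have m2 : tc 0 1 k ∈ X := a' ▸ mul_mem (mul_mem (m h1 hp') hv) (m h1 hq')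
  simp only [List.mem_cons, List.not_mem_nil, or_false] at hk
  exact hk.imp (fun e => fin_p h1 h2 k1 hX (Or.inl ⟨e, rfl⟩) m1 m2)
    fun e => fin_p h1 h2 k1 hX (Or.inr ⟨e, rfl⟩) m1 m2

end Cfsg.Lib.T33
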