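import Cfsg.Agent.T33.Defs

/-!
# The standard `E₁₆ : A₆`: free action, fusion and transitivity
-/

set_option autoImplicit false
set_option linter.unusedSectionVars false

namespace Cfsg.Lib.T33

open Subgroup Cfsg.Lib.Trans

universe u v

variable {G : Type u} [Group G]

namespace Std1

theorem mem_Cs {g x : G} : x ∈ Cs g ↔ x * g = g * x := mem_centralizer_singleton_iff

theorem cj_Cs (x g : G) : cj x (Cs g) = Cs (x * g * x⁻¹) := by
  rw [cj_centralizer_set, Set.image_singleton]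

theorem el_comm {A : Subgroup G} {n : ℕ} (h : El A n) {a b : G} (ha : a ∈ A) (hb : b ∈ A) :
    a * b = b * a := by
  have h1 := h.sq _ (A.mul_mem ha hb)
  have h2 := h.sq _ ha
  have h3 := h.sq _ hb
  calc a * b = a * (a * b * (a * b)) * b := by rw [h1]; group
    _ = (a * a) * (b * a) * (b * b) := by simp only [mul_assoc]
    _ = b * a := by rw [h2, h3]; group

theorem el_inv {A : Subgroup G} {n : ℕ} (h : El A n) {a : G} (ha : a ∈ A) : a⁻¹ = a :=
  inv_eq_of_mul_eq_one_right (h.sq a ha)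

theorem el_le_Ce {A : Subgroup G} {n : ℕ} (h : El A n) : A ≤ Ce A := fun _ ha =>
  mem_centralizer_iff.2 fun _ hb => el_comm h hb ha

theorem el_pgroup {A : Subgroup G} {n : ℕ} (h : El A n) : IsPGroup 2 A := fun a =>
  ⟨1, Subtype.ext (by simpa [pow_two] using h.sq a a.2)⟩

/-- The commutator map of an involution on `A`. -/
def cm {A : Subgroup G} {n : ℕ} (hA : El A n) {j : G} (hj : j ∈ Nm A) (h2 : j * j ∈ Ce A) :
    A →* (A ⊓ Cs j : Subgroup G) :=
  MonoidHom.mk' (fun a => ⟨a * (j * a * j⁻¹), A.mul_mem a.2 (mem_normalizer_conj hj a.2), by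
    have h1 : j * j * a * (j * j)⁻¹ = a := conj_eq_of_mem_centralizer h2 a.2
    have h3 := el_comm hA a.2 (mem_normalizer_conj hj a.2)
    refine mem_Cs.2 ?_
    calc a * (j * a * j⁻¹) * j = (j * a * j⁻¹) * a * j := by rw [h3]
      _ = (j * a * j⁻¹) * (j * j * a * (j * j)⁻¹) * j := by rw [h1]
      _ = j * (a * (j * a * j⁻¹)) := by group⟩) fun a b => Subtype.ext (by
    have h3 := el_comm hA b.2 (mem_normalizer_conj hj a.2)
    change (a * b : G) * (j * (a * b) * j⁻¹) = a * (j * a * j⁻¹) * (b * (j * b * j⁻¹))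
    calc (a * b : G) * (j * (a * b) * j⁻¹) = a * (b * (j * a * j⁻¹)) * (j * b * j⁻¹) := by group
      _ = _ := by rw [h3]; group)

theorem cm_eq_1' {A : Subgroup G} {n : ℕ} (hA : El A n) {j : G} (hj : j ∈ Nm A)
    (h2 : j * j ∈ Ce A) (a : A) : (cm hA hj h2 a : G) = a * (j * a * j⁻¹) := rfl

theorem cm_ker {A : Subgroup G} {n : ℕ} (hA : El A n) {j : G} (hj : j ∈ Nm A)
    (h2 : j * j ∈ Ce A) : (cm hA hj h2).ker = (A ⊓ Cs j).subgroupOf A := by
  ext a
  rw [MonoidHom.mem_ker, mem_subgroupOf, Subtype.ext_iff, cm_eq_1', mem_inf, mem_Cs]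
  have h1 := hA.sq a a.2
  constructor
  · intro h
    refine ⟨a.2, ?_⟩
    have h3 : (a : G) * (j * a * j⁻¹) = a * a := by rw [h1]; exact h
    have h4 := mul_left_cancel h3
    exact (mul_inv_eq_iff_eq_mul.1 h4).symm
  · rintro ⟨-, h⟩
    rw [← h, mul_inv_cancel_right]
    exact h1

theorem cm_card [Finite G] {A : Subgroup G} {n : ℕ} (hA : El A n) {j : G} (hj : j ∈ Nm A)
    (h2 : j * j ∈ Ce A) :
    Nat.card (A ⊓ Cs j : Subgroup G) * Nat.card (cm hA hj h2).range = n := by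
  rw [← index_ker, cm_ker, ← hA.card]
  exact card_mul_relIndex inf_le_left

theorem le_sq_fix [Finite G] {A : Subgroup G} {n : ℕ} (hA : El A n) {j : G} (hj : j ∈ Nm A)
    (h2 : j * j ∈ Ce A) : n ≤ Nat.card (A ⊓ Cs j : Subgroup G) ^ 2 := by
  rw [← cm_card hA hj h2, pow_two]
  exact Nat.mul_le_mul_left _ (card_le_card_group _)

theorem exists_comm [Finite G] {A : Subgroup G} {n : ℕ} (hA : El A n) {j : G} (hj : j ∈ Nm A)
    (h2 : j * j ∈ Ce A) (hf : Nat.card (A ⊓ Cs j : Subgroup G) ^ 2 ≤ n) {c : G} (hc : c ∈ A)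
    (hcj : c * j = j * c) : ∃ a ∈ A, a * j * a⁻¹ = c * j := by
  have h1 := cm_card hA hj h2
  have h3 : (cm hA hj h2).range = ⊤ := by
    refine eq_top_of_le_card _ ?_
    rw [← h1, pow_two] at hf
    exact Nat.le_of_mul_le_mul_left hf Nat.card_pos
  obtain ⟨a, ha⟩ := MonoidHom.range_eq_top.1 h3 ⟨c, hc, mem_Cs.2 hcj⟩
  have h4 : (a : G) * (j * a * j⁻¹) = c := congrArg Subtype.val ha
  refine ⟨a, a.2, ?_⟩
  rw [← h4, el_inv hA a.2]
  group

theorem card_modEq [Finite G] {r : ℕ} (hr : r.Prime) {D : Subgroup G} {σ : G}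
    (hσ : σ ^ r = 1) (hn : σ ∈ Nm D) :
    Nat.card D ≡ Nat.card (D ⊓ Cs σ : Subgroup G) [MOD r] := by
  have : Fact r.Prime := ⟨hr⟩
  have hle : zpowers σ ≤ normalizer (D : Set G) := zpowers_le.2 hn
  have hP : IsPGroup r (zpowers σ) := fun ⟨x, hx⟩ => ⟨1, Subtype.ext (by
    obtain ⟨k, rfl⟩ := mem_zpowers_iff.1 hx
    simp only [SubgroupClass.coe_pow, OneMemClass.coe_one]
    rw [← zpow_natCast, ← zpow_mul, mul_comm, zpow_mul, zpow_natCast, pow_one, hσ, one_zpow])⟩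
  let _ : MulAction (zpowers σ) D :=
    MulAction.compHom D (D.normalizerMonoidHom.comp (inclusion hle))
  refine (hP.card_modEq_card_fixedPoints D).trans (congrArg (· % r) ?_)
  refine Nat.card_congr ⟨fun x => ⟨x.1.1, x.1.2, mem_centralizer_singleton_iff.2 ?_⟩,
    fun x => ⟨⟨x.1, x.2.1⟩, fun ⟨g, hg⟩ => Subtype.ext ?_⟩, fun _ => rfl, fun _ => rfl⟩
  · have h : σ * x.1.1 * σ⁻¹ = x.1.1 := congrArg Subtype.val (x.2 ⟨σ, mem_zpowers σ⟩)
    exact (mul_inv_eq_iff_eq_mul.1 h).symm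
  · obtain ⟨k, rfl⟩ := mem_zpowers_iff.1 hg
    have h : Commute σ x.1 := (mem_centralizer_singleton_iff.1 x.2.2).symm
    exact mul_inv_eq_iff_eq_mul.2 (h.zpow_left k).eq

theorem pgroup_zpowers {p k : ℕ} {g : G} (h : g ^ p ^ k = 1) : IsPGroup p (zpowers g) :=
  fun ⟨x, hx⟩ => ⟨k, Subtype.ext (by
    obtain ⟨m, rfl⟩ := mem_zpowers_iff.1 hx
    simp only [SubgroupClass.coe_pow, OneMemClass.coe_one]
    rw [← zpow_natCast, ← zpow_mul, mul_comm, zpow_mul, zpow_natCast, h, one_zpow])⟩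

theorem card_mul_le [Finite G] {U V A : Subgroup G} (hU : U ≤ A) (hV : V ≤ A)
    (h : ∀ x ∈ U, x ∈ V → x = 1) : Nat.card U * Nat.card V ≤ Nat.card A := by
  rw [← Nat.card_prod]
  refine Nat.card_le_card_of_injective
    (fun x : U × V => (⟨x.1 * x.2, A.mul_mem (hU x.1.2) (hV x.2.2)⟩ : A)) ?_
  rintro ⟨a, b⟩ ⟨c, d⟩ e
  have e1 : (a : G) * b = c * d := congrArg Subtype.val e
  have e2 : (c : G)⁻¹ * a = d * (b : G)⁻¹ := by
    rw [inv_mul_eq_iff_eq_mul, ← mul_assoc, ← e1, mul_inv_cancel_right]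
  have e3 := h _ (U.mul_mem (U.inv_mem c.2) a.2) (e2 ▸ V.mul_mem d.2 (V.inv_mem b.2))
  have e4 : (a : G) = c := (inv_mul_eq_one.1 e3).symm
  refine Prod.ext (Subtype.ext e4) (Subtype.ext ?_)
  rw [e4] at e1
  exact mul_left_cancel e1

theorem two_mul_le [Finite G] {U V : Subgroup G} (h : U < V) : 2 * Nat.card U ≤ Nat.card V := by
  obtain ⟨k, hk⟩ := card_dvd_of_le h.le
  have h1 := card_lt_of_lt h
  have h2 : 0 < Nat.card U := Nat.card_pos
  have : 2 ≤ k := by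
    by_contra h3
    have : k = 0 ∨ k = 1 := by omega
    rcases this with rfl | rfl <;> omega
  rw [hk, mul_comm]
  exact Nat.mul_le_mul_left _ this

/-! ### Involutions of `A₆` -/

open Equiv Equiv.Perm in
theorem cycleType_inv {j : Perm (Fin 6)} (hs : j ∈ alternatingGroup (Fin 6)) (h1 : j ≠ 1)
    (h2 : j * j = 1) : j.cycleType = {2, 2} := by
  have ho : orderOf j = 2 := orderOf_eq_prime (by rw [pow_two, h2]) h1
  obtain ⟨n, hn⟩ := cycleType_prime_order (σ := j) (ho ▸ Nat.prime_two)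
  rw [ho] at hn
  have h3 := j.sum_cycleType_le
  have h4 := mem_alternatingGroup.1 hs
  rw [sign_of_cycleType, hn] at h4
  rw [hn] at h3
  simp only [Multiset.sum_replicate, smul_eq_mul, Fintype.card_fin, Multiset.card_replicate] at h3 h4
  have : n = 0 ∨ n = 1 ∨ n = 2 := by omega
  rcases this with rfl | rfl | rfl
  · exact absurd h4 (by decide)
  · rw [hn]; rfl
  · exact absurd h4 (by decide)

open Equiv Equiv.Perm in
theorem conj_inv {j k : Perm (Fin 6)} (hj : j ∈ alternatingGroup (Fin 6)) (j1 : j ≠ 1)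
    (j2 : j * j = 1) (hk : k ∈ alternatingGroup (Fin 6)) (k1 : k ≠ 1) (k2 : k * k = 1) :
    ∃ x ∈ alternatingGroup (Fin 6), x * j * x⁻¹ = k := by
  have h1 := cycleType_inv hj j1 j2
  have h2 := cycleType_inv hk k1 k2
  have h3 : IsConj j k := isConj_iff_cycleType_eq.2 (h1.trans h2.symm)
  have h4 := alternatingGroup.isConj_of (σ := ⟨j, hj⟩) (τ := ⟨k, hk⟩) h3 (by
    rw [← sum_cycleType, h1]; simp)
  obtain ⟨x, hx⟩ := isConj_iff.1 h4
  exact ⟨x, x.2, congrArg Subtype.val hx⟩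

open Equiv Equiv.Perm in
theorem three_cycle : IsThreeCycle (swap (0 : Fin 6) 1 * swap 1 4) := by
  rw [← card_support_eq_three_iff]; decide

open Equiv Equiv.Perm in
theorem three_conj {c : Perm (Fin 6)} (h : c.IsThreeCycle) (x : Perm (Fin 6)) :
    (x * c * x⁻¹).IsThreeCycle := by
  unfold IsThreeCycle
  rw [cycleType_conj]
  exact h

open Equiv Equiv.Perm in
theorem exists_three {j : Perm (Fin 6)} (hj : j ∈ alternatingGroup (Fin 6)) (j1 : j ≠ 1)
    (j2 : j * j = 1) : ∃ r ∈ alternatingGroup (Fin 6), (j * (r * j * r⁻¹)).IsThreeCycle := by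
  obtain ⟨x, hx, rfl⟩ := conj_inv (j := swap (0 : Fin 6) 1 * swap 2 3)
    (mem_alternatingGroup.2 (by decide)) (by decide) (by decide) hj j1 j2
  refine ⟨x * (swap (0 : Fin 6) 1 * swap 1 4) * x⁻¹,
    (three_conj three_cycle x).mem_alternatingGroup, ?_⟩
  have h1 : (swap (0 : Fin 6) 1 * swap 2 3) * ((swap (0 : Fin 6) 1 * swap 1 4) *
      (swap (0 : Fin 6) 1 * swap 2 3) * (swap (0 : Fin 6) 1 * swap 1 4)⁻¹) =
      swap (0 : Fin 6) 1 * swap 1 4 := by decide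
  have h2 := three_conj three_cycle x
  rw [← h1] at h2
  convert h2 using 1
  group

end Std1

open Std1

variable [Finite G] {A N : Subgroup G} {ψ : N →* Equiv.Perm (Fin 6)}

theorem Std.card (h : Std A N ψ) : Nat.card N = 5760 := by
  have h1 : ψ.ker = A.subgroupOf N := by
    ext g
    rw [MonoidHom.mem_ker, h.ker, mem_subgroupOf]
  have h2 := card_mul_relIndex h.le
  rw [relIndex, ← h1, index_ker, h.range, h.el.card, nat_card_alternatingGroup] at h2
  rw [← h2]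
  simp [Nat.factorial]

theorem Std.fact (h : Std A N ψ) : (Nat.card (Nm A)).factorization 2 = 7 := by
  have h1 := card_mul_relIndex h.nrm
  have h2 := h.odd
  rw [h.card] at h1
  have h3 : Nat.card (Nm A) ≠ 0 := Nat.card_pos.ne'
  have h4 := (Nat.prime_two.pow_dvd_iff_le_factorization (k := 7) h3).1 (by omega)
  have h5 := mt (Nat.prime_two.pow_dvd_iff_le_factorization (k := 8) h3).2 (by omega)
  omega

namespace Std1

omit [Finite G] in
theorem mem_alt (h : Std A N ψ) (g : N) : ψ g ∈ alternatingGroup (Fin 6) :=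
  h.range ▸ ⟨g, rfl⟩

omit [Finite G] in
theorem lift (h : Std A N ψ) {x : Equiv.Perm (Fin 6)} (hx : x ∈ alternatingGroup (Fin 6)) :
    ∃ g : N, ψ g = x := by
  rw [← h.range] at hx
  exact hx

/-- `2`-subgroups of `N(A)` can be moved into `N`. -/
theorem move (h : Std A N ψ) {Q : Subgroup G} (hQ : IsPGroup 2 Q) (hle : Q ≤ Nm A) :
    ∃ x ∈ Nm A, cj x Q ≤ N := by
  obtain ⟨T, hT⟩ := exists_isSylowIn (p := 2) N
  obtain ⟨x, hx, h1⟩ := (hT.trans h.nrm h.odd).exists_cj_le hQ hle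
  exact ⟨x, hx, h1.trans hT.le⟩

theorem move1 (h : Std A N ψ) {g : G} (hg : g ∈ Nm A) (h2 : g * g ∈ A) :
    ∃ x ∈ Nm A, x * g * x⁻¹ ∈ N := by
  have h1 : g ^ 2 ^ 2 = 1 := by
    rw [← h.el.sq _ h2, show 2 ^ 2 = 4 from rfl]
    simp only [pow_succ, pow_zero, one_mul, mul_assoc]
  obtain ⟨x, hx, h3⟩ := move h (pgroup_zpowers h1) (zpowers_le.2 hg)
  exact ⟨x, hx, h3 (conj_mem_cj.2 (mem_zpowers g))⟩

omit [Finite G] in
theorem not_mem_conj {x g : G} (hx : x ∈ Nm A) (hg : g ∉ A) : x * g * x⁻¹ ∉ A := fun h1 =>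
  hg (by simpa [mul_assoc] using mem_normalizer_conj' hx h1)

omit [Finite G] in
theorem card_fix_conj {x : G} (hx : x ∈ Nm A) (g : G) :
    Nat.card (A ⊓ Cs (x * g * x⁻¹) : Subgroup G) = Nat.card (A ⊓ Cs g : Subgroup G) := by
  rw [← card_cj x (A ⊓ Cs g), cj_inf, cj_eq_of_mem_normalizer hx, cj_Cs]

theorem free0 (h : Std A N ψ) {g : G} (hg : g ∈ N) (hA : g ∉ A) (h2 : g * g ∈ A) :
    Nat.card (A ⊓ Cs g : Subgroup G) = 4 := by
  obtain ⟨r, hr, h3⟩ := exists_three (mem_alt h ⟨g, hg⟩) (mt (h.ker _).1 hA)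
    (by rw [← map_mul]; exact (h.ker _).2 h2)
  obtain ⟨r, rfl⟩ := lift h hr
  rw [← map_inv, ← map_mul, ← map_mul, ← map_mul] at h3
  have h4 := card_mul_le (U := A ⊓ Cs g) (V := A ⊓ Cs (r * g * (r : G)⁻¹)) inf_le_left inf_le_left
    (fun x h5 h6 => h.fpf _ h3 x h5.1 (by
      have e1 : Commute x g := mem_Cs.1 h5.2
      have e2 : Commute x (r * g * (r : G)⁻¹) := mem_Cs.1 h6.2
      exact (e1.mul_right e2).eq))
  rw [card_fix_conj (h.nrm r.2), h.el.card] at h4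
  have h5 := le_sq_fix h.el (h.nrm hg) (el_le_Ce h.el h2)
  rw [pow_two] at h5
  exact Nat.mul_self_inj.1 (by omega)

end Std1

theorem Std.free (h : Std A N ψ) {g : G} (hg : g ∈ Nm A) (hA : g ∉ A) (h2 : g * g ∈ A) :
    Nat.card (A ⊓ Cs g : Subgroup G) = 4 := by
  obtain ⟨x, hx, h1⟩ := move1 h hg h2
  rw [← card_fix_conj hx g]
  refine free0 h h1 (not_mem_conj hx hA) ?_
  have := mem_normalizer_conj hx h2
  convert this using 1
  group

namespace Std1

/-- involutions in the same coset of `A` are conjugate under `A` -/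
theorem conj_coset (h : Std A N ψ) {j k : G} (hj : j ∈ Nm A) (jA : j ∉ A) (j2 : j * j = 1)
    (k2 : k * k = 1) (hc : k * j⁻¹ ∈ A) : ∃ a ∈ A, a * j * a⁻¹ = k := by
  have h1 : j * j ∈ A := j2 ▸ A.one_mem
  have e1 : j⁻¹ = j := inv_eq_of_mul_eq_one_right j2
  have e2 : k⁻¹ = k := inv_eq_of_mul_eq_one_right k2
  have e3 := el_inv h.el hc
  obtain ⟨a, ha, h2⟩ := exists_comm h.el hj (el_le_Ce h.el h1) (by rw [h.free hj jA h1]; norm_num) hc
    (by
      rw [mul_inv_rev, inv_inv, e2, e1] at e3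
      rw [e1, mul_assoc, j2, mul_one, ← e3, ← mul_assoc, j2, one_mul])
  exact ⟨a, ha, by rw [h2, inv_mul_cancel_right]⟩

end Std1

theorem Std.conj (h : Std A N ψ) {j k : G} (hj : j ∈ Nm A) (hk : k ∈ Nm A) (jA : j ∉ A)
    (kA : k ∉ A) (j2 : j * j = 1) (k2 : k * k = 1) : ∃ n ∈ Nm A, n * j * n⁻¹ = k := by
  obtain ⟨x, hx, h1⟩ := move1 h hj (j2 ▸ A.one_mem)
  obtain ⟨y, hy, h2⟩ := move1 h hk (k2 ▸ A.one_mem)
  have sq : ∀ a b : G, b * b = 1 → a * b * a⁻¹ * (a * b * a⁻¹) = 1 := fun a b hb => by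
    calc a * b * a⁻¹ * (a * b * a⁻¹) = a * (b * b) * a⁻¹ := by group
      _ = 1 := by rw [hb]; group
  obtain ⟨n, hn, h3⟩ := conj_inv (mem_alt h ⟨_, h1⟩) (mt (h.ker _).1 (not_mem_conj hx jA))
    (by rw [← map_mul]; exact (h.ker _).2 ((sq x j j2).symm ▸ A.one_mem :
      x * j * x⁻¹ * (x * j * x⁻¹) ∈ A))
    (mem_alt h ⟨_, h2⟩) (mt (h.ker _).1 (not_mem_conj hy kA))
    (by rw [← map_mul]; exact (h.ker _).2 ((sq y k k2).symm ▸ A.one_mem :
      y * k * y⁻¹ * (y * k * y⁻¹) ∈ A))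
  obtain ⟨n, rfl⟩ := lift h hn
  have h4 : (y * k * y⁻¹) * (n * (x * j * x⁻¹) * (n : G)⁻¹)⁻¹ ∈ A := by
    refine (h.ker (⟨_, h2⟩ * (n * ⟨_, h1⟩ * n⁻¹)⁻¹)).1 ?_
    rw [map_mul, map_inv, map_mul, map_mul, map_inv, h3, mul_inv_cancel]
  have hn := h.nrm n.2
  obtain ⟨a, ha, h5⟩ := conj_coset h
    ((Nm A).mul_mem ((Nm A).mul_mem hn (h.nrm h1)) ((Nm A).inv_mem hn))
    (not_mem_conj hn (not_mem_conj hx jA)) (sq _ _ (sq x j j2)) (sq y k k2) h4
  refine ⟨y⁻¹ * a * n * x, (Nm A).mul_mem ((Nm A).mul_mem ((Nm A).mul_mem ((Nm A).inv_mem hy)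
    (le_normalizer ha)) hn) hx, ?_⟩
  calc y⁻¹ * a * n * x * j * (y⁻¹ * a * n * x)⁻¹
      = y⁻¹ * (a * (n * (x * j * x⁻¹) * (n : G)⁻¹) * a⁻¹) * y := by group
    _ = k := by rw [h5]; group

namespace Std1

theorem three_dvd (h : Std A N ψ) {a : G} (ha : a ∈ A) (a1 : a ≠ 1) :
    3 ∣ (N ⊓ Cs a).relIndex N := by
  by_contra h3
  have : Fact (Nat.Prime 3) := ⟨Nat.prime_three⟩
  obtain ⟨P, hP⟩ := exists_isSylowIn (p := 3) (N ⊓ Cs a)
  obtain ⟨g, hg⟩ := lift h three_cycle.mem_alternatingGroup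
  have e1 : ψ (g ^ 3) = 1 := by rw [map_pow, hg]; decide
  have e2 := h.el.sq _ ((h.ker _).1 e1)
  have e3 : ((g ^ 4 : N) : G) ^ 3 ^ 1 = 1 := by
    rw [SubgroupClass.coe_pow] at e2 ⊢
    calc ((g : G) ^ 4) ^ 3 ^ 1 = ((g : G) ^ 3 * (g : G) ^ 3) ^ 2 := by group
      _ = 1 := by rw [e2, one_pow]
  obtain ⟨x, hx, h4⟩ := (hP.trans inf_le_left h3).exists_cj_le (pgroup_zpowers e3)
    (zpowers_le.2 (g ^ 4).2)
  have h5 := (hP.le (h4 (conj_mem_cj.2 (mem_zpowers _)))).2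
  refine a1 (h.fpf (⟨x, hx⟩ * g ^ 4 * ⟨x, hx⟩⁻¹) ?_ a ha (mem_Cs.1 h5).symm)
  rw [map_mul, map_mul, map_inv, map_pow, hg]
  refine three_conj ?_ _
  have : (Equiv.swap (0 : Fin 6) 1 * Equiv.swap 1 4) ^ 4 = Equiv.swap (0 : Fin 6) 1 * Equiv.swap 1 4 := by
    decide
  rw [this]
  exact three_cycle

theorem five_dvd (h : Std A N ψ) {a : G} (ha : a ∈ A) (a1 : a ≠ 1) :
    5 ∣ (N ⊓ Cs a).relIndex N := by
  by_contra h5
  have : Fact (Nat.Prime 5) := ⟨Nat.prime_five⟩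
  have h1 := card_mul_relIndex (inf_le_left : N ⊓ Cs a ≤ N)
  rw [h.card] at h1
  have h2 : 5 ∣ Nat.card (N ⊓ Cs a : Subgroup G) :=
    ((Nat.Prime.dvd_mul Nat.prime_five).1 (h1 ▸ by norm_num)).resolve_right h5
  obtain ⟨g, hg⟩ := exists_prime_orderOf_dvd_card' 5 h2
  have hg' : orderOf (g : G) = 5 := by rw [orderOf_coe, hg]
  have h3 := card_modEq Nat.prime_five (hg' ▸ pow_orderOf_eq_one (g : G)) (h.nrm g.2.1)
  have h4 := card_dvd_of_le (inf_le_left : A ⊓ Cs (g : G) ≤ A)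
  rw [h.el.card] at h3 h4
  have h6 : Nat.card (A ⊓ Cs (g : G) : Subgroup G) ≠ 1 := fun e => by
    have e1 : a ∈ A ⊓ Cs (g : G) := ⟨ha, mem_Cs.2 (mem_Cs.1 g.2.2).symm⟩
    rw [card_eq_one.1 e] at e1
    exact a1 e1
  have h7 : Nat.card (A ⊓ Cs (g : G) : Subgroup G) = 16 := by
    have := Nat.le_of_dvd (by norm_num) h4
    unfold Nat.ModEq at h3
    generalize Nat.card (A ⊓ Cs (g : G) : Subgroup G) = m at *
    interval_cases m <;> omega
  have h8 : A ⊓ Cs (g : G) = A := eq_of_le_of_card_ge inf_le_left (by rw [h7, h.el.card])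
  have h9 : (g : G) ∈ A := h.cent (mem_centralizer_iff.2 fun b hb =>
    mem_Cs.1 ((h8.symm ▸ hb : b ∈ A ⊓ Cs (g : G)).2))
  have h10 : orderOf (g : G) ∣ 2 := orderOf_dvd_of_pow_eq_one (by rw [pow_two, h.el.sq _ h9])
  rw [hg'] at h10
  omega

end Std1

theorem Std.trans (h : Std A N ψ) {a b : G} (ha : a ∈ A) (hb : b ∈ A) (a1 : a ≠ 1) (b1 : b ≠ 1) :
    ∃ n ∈ N, n * a * n⁻¹ = b := by
  let _ : MulAction N G := MulAction.compHom G (MulAut.conj.comp N.subtype)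
  have sm : ∀ (n : N) (x : G), n • x = n * x * (n : G)⁻¹ := fun _ _ => rfl
  have h1 : MulAction.stabilizer N a = (N ⊓ Cs a).subgroupOf N := by
    ext n
    rw [MulAction.mem_stabilizer_iff, sm, mem_subgroupOf, mem_inf, mem_Cs, mul_inv_eq_iff_eq_mul]
    exact ⟨fun e => ⟨n.2, e⟩, fun e => e.2⟩
  have h2 := MulAction.index_stabilizer N a
  rw [h1] at h2
  have h3 := three_dvd h ha a1
  have h5 := five_dvd h ha a1
  rw [relIndex, h2] at h3 h5
  have h6 : MulAction.orbit N a ⊆ (A : Set G) \ {1} := by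
    rintro _ ⟨n, rfl⟩
    refine ⟨mem_normalizer_conj (h.nrm n.2) ha, fun e => a1 ?_⟩
    simpa [sm] using e
  have h7 : ((A : Set G) \ {1}).ncard = 15 := by
    rw [Set.ncard_sdiff_singleton_of_mem A.one_mem, ← Nat.card_coe_set_eq]
    have : Nat.card (A : Set G) = 16 := h.el.card
    rw [this]
  have h8 : 0 < (MulAction.orbit N a).ncard :=
    (Set.ncard_pos (Set.toFinite _)).2 ⟨a, MulAction.mem_orbit_self a⟩
  have h9 := Set.eq_of_subset_of_ncard_le h6 (by omega) (Set.toFinite _)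
  obtain ⟨n, hn⟩ : b ∈ MulAction.orbit N a := h9 ▸ ⟨hb, b1⟩
  exact ⟨n, n.2, hn⟩

theorem Std.cent16 (h : Std A N ψ) {T : Subgroup G} (hT : IsSylowIn 2 T (Nm A)) {v : G}
    (hv : v ∈ T) (vA : v ∉ A) (v2 : v * v = 1) : 16 ≤ Nat.card (T ⊓ Cs v : Subgroup G) := by
  have hvN := hT.le hv
  have e1 : v⁻¹ = v := inv_eq_of_mul_eq_one_right v2
  have hAT : A ≤ T := hT.le_of_normal (el_pgroup h.el) le_normalizer le_rfl
  have cv : ∀ {a}, a ∈ A → v * a * v ∈ A := fun ha => by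
    have := mem_normalizer_conj hvN ha
    rwa [e1] at this
  let U : Subgroup G :=
    { carrier := {u | u ∈ A ∨ u * v ∈ A}
      one_mem' := Or.inl A.one_mem
      mul_mem' := by
        rintro a b (ha | ha) (hb | hb)
        · exact Or.inl (A.mul_mem ha hb)
        · exact Or.inr (by rw [mul_assoc]; exact A.mul_mem ha hb)
        · refine Or.inr ?_
          have := A.mul_mem ha (cv hb)
          rwa [show a * v * (v * b * v) = a * (v * v) * b * v by group, v2, mul_one] at this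
        · refine Or.inl ?_
          have := A.mul_mem ha (cv hb)
          rwa [show a * v * (v * (b * v) * v) = a * (v * v) * b * (v * v) by group, v2, mul_one,
            mul_one] at this
      inv_mem' := by
        rintro a (ha | ha)
        · exact Or.inl (A.inv_mem ha)
        · refine Or.inr ?_
          have := cv (A.inv_mem ha)
          rwa [mul_inv_rev, mul_inv_cancel_left] at this }
  have mU : ∀ {u}, u ∈ U ↔ u ∈ A ∨ u * v ∈ A := Iff.rfl
  have vU : v ∈ U := Or.inr (v2 ▸ A.one_mem)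
  have UT : U ≤ T := by
    rintro u (hu | hu)
    · exact hAT hu
    · have := T.mul_mem (hAT hu) (T.inv_mem hv)
      rwa [mul_inv_cancel_right] at this
  have cU : Nat.card U ≤ 32 := by
    have h1 : (U : Set G) ⊆ (A : Set G) ∪ (fun a => a * v) '' (A : Set G) := by
      rintro u (hu | hu)
      · exact Or.inl hu
      · exact Or.inr ⟨_, hu, by simp only [mul_assoc, v2, mul_one]⟩
    have h2 := Set.ncard_le_ncard h1
    have h3 := Set.ncard_union_le (A : Set G) ((fun a => a * v) '' (A : Set G))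
    have h4 := Set.ncard_image_le (f := fun a => a * v) (s := (A : Set G))
    have h5 : (A : Set G).ncard = 16 := h.el.card
    have h6 : Nat.card U = (U : Set G).ncard := rfl
    omega
  have cT : Nat.card T = 128 := by rw [hT.card_eq, h.fact]; rfl
  have lt : U < T := lt_of_le_of_ne UT fun e => by rw [e] at cU; omega
  obtain ⟨z, ⟨zT, zN⟩, zU⟩ := SetLike.exists_of_lt (lt_inf_normalizer hT.isPGroup lt)
  have h1 : z * v * z⁻¹ * v⁻¹ ∈ A := by
    rw [e1]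
    exact (mU.1 (mem_normalizer_conj zN vU)).resolve_left (not_mem_conj (hT.le zT) vA)
  obtain ⟨a, ha, h2⟩ := conj_coset h hvN vA v2 (by
    calc z * v * z⁻¹ * (z * v * z⁻¹) = z * (v * v) * z⁻¹ := by group
      _ = 1 := by rw [v2]; group) h1
  have h3 : A ⊓ Cs v < U ⊓ Cs v := by
    refine lt_of_le_of_ne (inf_le_inf_right _ fun u hu => Or.inl hu) fun e => vA ?_
    exact (e.symm ▸ ⟨vU, mem_Cs.2 rfl⟩ : v ∈ A ⊓ Cs v).1
  have h4 : U ⊓ Cs v < T ⊓ Cs v := by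
    refine lt_of_le_of_ne (inf_le_inf_right _ UT) fun e => zU ?_
    have h5 : a⁻¹ * z ∈ T ⊓ Cs v := ⟨T.mul_mem (T.inv_mem (hAT ha)) zT, mem_Cs.2 (by
      calc a⁻¹ * z * v = a⁻¹ * (z * v * z⁻¹) * z := by group
        _ = v * (a⁻¹ * z) := by rw [← h2]; group)⟩
    have h6 := U.mul_mem (Or.inl ha : a ∈ U) (e.symm ▸ h5 : a⁻¹ * z ∈ U ⊓ Cs v).1
    rwa [mul_inv_cancel_left] at h6
  have h5 := two_mul_le h3
  have h6 := two_mul_le h4
  rw [h.free hvN vA (v2 ▸ A.one_mem)] at h5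
  omega

end Cfsg.Lib.T33
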