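import Cfsg.Agent.T33.Defs

/-!
# Point stabiliser in `2⁴ A₆`: permutation facts and a sign homomorphism
-/

set_option autoImplicit false

namespace Cfsg.Lib.T33.Stab

open Subgroup Equiv

universe u

/-- The involution `(0 1)(2 3)`. -/
def j1 : Perm (Fin 6) := swap 0 1 * swap 2 3
/-- The involution `(2 3)(4 5)`. -/
def j2 : Perm (Fin 6) := swap 2 3 * swap 4 5
/-- The involution `(0 1)(4 5)`. -/
def j3 : Perm (Fin 6) := swap 0 1 * swap 4 5
/-- The element `(0 2 4)(1 3 5)`. -/
def sg : Perm (Fin 6) := swap 0 2 * swap 2 4 * (swap 1 3 * swap 3 5)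
/-- The involution `(0 2)(1 3)`. -/
def tt : Perm (Fin 6) := swap 0 2 * swap 1 3
/-- The three-cycle `(0 1 2)`. -/
def rr : Perm (Fin 6) := swap 0 1 * swap 1 2
/-- The three involutions of a four-group. -/
def JS : Set (Perm (Fin 6)) := {j1, j2, j3}

theorem mem_JS {j : Perm (Fin 6)} : j ∈ JS ↔ j = j1 ∨ j = j2 ∨ j = j3 := by
  simp [JS]

theorem cent_pow4 : ∀ g : Perm (Fin 6), g * j1 = j1 * g → g ^ 4 = 1 := by
  decide +kernel

theorem j1_alt : j1 ∈ alternatingGroup (Fin 6) := by
  rw [Perm.mem_alternatingGroup, j1, map_mul, Perm.sign_swap (by decide),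
    Perm.sign_swap (by decide)]; rfl
theorem j2_alt : j2 ∈ alternatingGroup (Fin 6) := by
  rw [Perm.mem_alternatingGroup, j2, map_mul, Perm.sign_swap (by decide),
    Perm.sign_swap (by decide)]; rfl
theorem j3_alt : j3 ∈ alternatingGroup (Fin 6) := by
  rw [Perm.mem_alternatingGroup, j3, map_mul, Perm.sign_swap (by decide),
    Perm.sign_swap (by decide)]; rfl
theorem tt_alt : tt ∈ alternatingGroup (Fin 6) := by
  rw [Perm.mem_alternatingGroup, tt, map_mul, Perm.sign_swap (by decide),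
    Perm.sign_swap (by decide)]; rfl
theorem rr_alt : rr ∈ alternatingGroup (Fin 6) := by
  rw [Perm.mem_alternatingGroup, rr, map_mul, Perm.sign_swap (by decide),
    Perm.sign_swap (by decide)]; rfl
theorem sg_alt : sg ∈ alternatingGroup (Fin 6) := by
  rw [Perm.mem_alternatingGroup, sg, map_mul, map_mul, map_mul, Perm.sign_swap (by decide),
    Perm.sign_swap (by decide), Perm.sign_swap (by decide), Perm.sign_swap (by decide)]; rfl

theorem JS_alt {j : Perm (Fin 6)} (hj : j ∈ JS) : j ∈ alternatingGroup (Fin 6) := by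
  rcases mem_JS.1 hj with rfl | rfl | rfl
  exacts [j1_alt, j2_alt, j3_alt]

theorem JS_ne {j : Perm (Fin 6)} (hj : j ∈ JS) : j ≠ 1 := by
  rcases mem_JS.1 hj with rfl | rfl | rfl <;> decide

theorem JS_sq {j : Perm (Fin 6)} (hj : j ∈ JS) : j * j = 1 := by
  rcases mem_JS.1 hj with rfl | rfl | rfl <;> decide

theorem JS_comm {j : Perm (Fin 6)} (hj : j ∈ JS) : j * j1 = j1 * j := by
  rcases mem_JS.1 hj with rfl | rfl | rfl <;> decide

theorem JS_prod {j : Perm (Fin 6)} (hj : j ∈ JS) :
    j * (sg * j * sg⁻¹) * (sg * (sg * j * sg⁻¹) * sg⁻¹) = 1 := by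
  rcases mem_JS.1 hj with rfl | rfl | rfl <;> decide +kernel

theorem JS_cov {j k : Perm (Fin 6)} (hj : j ∈ JS) (hk : k ∈ JS) :
    k = j ∨ k = sg * j * sg⁻¹ ∨ k = sg * (sg * j * sg⁻¹) * sg⁻¹ := by
  rcases mem_JS.1 hj with rfl | rfl | rfl <;> rcases mem_JS.1 hk with rfl | rfl | rfl <;>
    decide +kernel

theorem sg_pow : sg ^ 3 = 1 := by decide
theorem sg_ne : sg ≠ 1 := by decide
theorem rr_comm : rr⁻¹ * j1 * rr * j1 = j1 * (rr⁻¹ * j1 * rr) := by decide
theorem rr_three : (rr⁻¹ * j3 * rr * j3).IsThreeCycle := by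
  have : rr⁻¹ * j3 * rr * j3 = swap 0 2 * swap 0 1 := by decide
  rw [this]
  exact Perm.isThreeCycle_swap_mul_swap_same (by decide) (by decide) (by decide)

theorem mem_nJ {g : Perm (Fin 6)} (h : ∀ j ∈ [j1, j2, j3], g * j * g⁻¹ ∈ [j1, j2, j3]) :
    g ∈ normalizer JS := by
  refine mem_normalizer_fintype fun j hj => ?_
  have := h j (by simpa [JS] using hj)
  simpa [JS] using this

theorem sg_nJ : sg ∈ normalizer JS := mem_nJ (by decide +kernel)

/-- Twenty-four elements normalizing the four-group. -/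
def lst (p : Fin 2 × Fin 2 × Fin 3 × Fin 2) : Perm (Fin 6) :=
  j1 ^ (p.1 : ℕ) * j2 ^ (p.2.1 : ℕ) * sg ^ (p.2.2.1 : ℕ) * tt ^ (p.2.2.2 : ℕ)

theorem lst_inj : Function.Injective lst := by
  decide +kernel

theorem relIndex_nJ : (normalizer JS).relIndex (alternatingGroup (Fin 6)) ≤ 15 := by
  have h1 : ∀ p, lst p ∈ alternatingGroup (Fin 6) := fun p =>
    mul_mem (mul_mem (mul_mem (pow_mem j1_alt _) (pow_mem j2_alt _)) (pow_mem sg_alt _))
      (pow_mem tt_alt _)
  have h2 : ∀ p, lst p ∈ normalizer JS := fun p =>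
    mul_mem (mul_mem (mul_mem (pow_mem (mem_nJ (by decide +kernel)) _)
      (pow_mem (mem_nJ (by decide +kernel)) _)) (pow_mem sg_nJ _))
      (pow_mem (mem_nJ (by decide +kernel)) _)
  have h3 : 24 ≤ Nat.card ((normalizer JS).subgroupOf (alternatingGroup (Fin 6))) := by
    have := Nat.card_le_card_of_injective
      (fun p => (⟨⟨lst p, h1 p⟩, h2 p⟩ : (normalizer JS).subgroupOf (alternatingGroup (Fin 6))))
      fun p q hpq => lst_inj (congrArg (fun x => (x.1.1 : Perm (Fin 6))) hpq)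
    simpa using this
  have h4 := ((normalizer JS).subgroupOf (alternatingGroup (Fin 6))).card_mul_index
  have h5 : Nat.card (alternatingGroup (Fin 6)) = 360 := by
    rw [nat_card_alternatingGroup]; simp [Nat.factorial]
  rw [h5] at h4
  change ((normalizer JS).subgroupOf (alternatingGroup (Fin 6))).index ≤ 15
  by_contra hlt
  have h6 := Nat.mul_le_mul h3 (Nat.succ_le_of_lt (not_le.1 hlt))
  omega

/-- Fixed points of a `p`-group normalizing `A`. -/
theorem card_modEq {G : Type u} [Group G] [Finite G] {p : ℕ} [Fact p.Prime] {R A : Subgroup G}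
    (hR : IsPGroup p R) (hN : R ≤ Nm A) :
    Nat.card A ≡ Nat.card (A ⊓ Ce R : Subgroup G) [MOD p] := by
  letI : MulAction R A := MulAction.compHom A (A.normalizerMonoidHom.comp (inclusion hN))
  have h1 := hR.card_modEq_card_fixedPoints A
  have key : ∀ a : A, a ∈ MulAction.fixedPoints R A ↔ (a : G) ∈ Ce R := fun a => by
    rw [MulAction.mem_fixedPoints, mem_centralizer_iff]
    constructor
    · intro h r hr
      have h2 : r * (a : G) * r⁻¹ = a := congrArg Subtype.val (h ⟨r, hr⟩)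
      exact mul_inv_eq_iff_eq_mul.1 h2
    · intro h r
      exact Subtype.ext (mul_inv_eq_iff_eq_mul.2 (h r r.2))
  have h3 : Nat.card (MulAction.fixedPoints R A) = Nat.card (A ⊓ Ce R : Subgroup G) :=
    Nat.card_congr
      { toFun := fun a => ⟨a.1.1, a.1.2, (key _).1 a.2⟩
        invFun := fun a => ⟨⟨a.1, a.2.1⟩, (key _).2 a.2.2⟩
        left_inv := fun _ => rfl
        right_inv := fun _ => rfl }
  rwa [h3] at h1

/-- The sign of the action on six pairs. -/
theorem exists_index_two {K : Type u} [Group K] [Finite K] {I : Set K} {z w : K}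
    (hzc : ∀ g, g * z = z * g) (z2 : z * z = 1) (z1 : z ≠ 1)
    (hI : ∀ g, ∀ x ∈ I, g * x * g⁻¹ ∈ I) (hIz : ∀ x ∈ I, x * z ∈ I) (hc : I.ncard = 12)
    (w2 : w * w = 1) (hw : ∀ x ∈ I, w * x * w⁻¹ ≠ x ∧ w * x * w⁻¹ ≠ x * z) :
    ∃ M : Subgroup K, M.index = 2 ∧ z ∈ M ∧ w ∉ M := by
  classical
  let Z : Subgroup K :=
    { carrier := {1, z}
      one_mem' := Or.inl rfl
      mul_mem' := by
        rintro a b (rfl | rfl) (rfl | rfl)
        · exact Or.inl (one_mul _)
        · exact Or.inr (one_mul _)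
        · exact Or.inr (mul_one _)
        · exact Or.inl z2
      inv_mem' := by
        rintro a (rfl | rfl)
        · exact Or.inl inv_one
        · exact Or.inr (inv_eq_of_mul_eq_one_right z2) }
  have memZ : ∀ x, x ∈ Z ↔ x = 1 ∨ x = z := fun x => Iff.rfl
  haveI : Z.Normal := ⟨fun n hn g => by
    rcases (memZ n).1 hn with rfl | rfl
    · exact (memZ _).2 (Or.inl (by group))
    · exact (memZ _).2 (Or.inr (by rw [hzc g, mul_inv_cancel_right]))⟩
  have cZ : Nat.card Z = 2 := by
    change Nat.card ({1, z} : Set K) = 2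
    rw [Nat.card_coe_set_eq, Set.ncard_pair z1.symm]
  let π := QuotientGroup.mk' Z
  have hπ : ∀ x y, π x = π y ↔ y = x ∨ y = x * z := fun x y => by
    rw [QuotientGroup.mk'_eq_mk']
    constructor
    · rintro ⟨c, hc, rfl⟩
      rcases (memZ c).1 hc with rfl | rfl
      · exact Or.inl (mul_one _)
      · exact Or.inr rfl
    · rintro (rfl | rfl)
      · exact ⟨1, one_mem _, mul_one _⟩
      · exact ⟨z, Or.inr rfl, rfl⟩
  let X : Set (K ⧸ Z) := π '' I
  have hpre : QuotientGroup.mk ⁻¹' X = I := by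
    ext y
    constructor
    · rintro ⟨x, hx, hxy⟩
      rcases (hπ x y).1 hxy with rfl | rfl
      · exact hx
      · exact hIz x hx
    · exact fun hy => ⟨y, hy, rfl⟩
  have cX : Nat.card X = 6 := by
    have := QuotientGroup.card_preimage_mk Z X
    rw [hpre, cZ, Nat.card_coe_set_eq, hc] at this
    omega
  have hX : ∀ g : K, ∀ y ∈ X, π g * y * (π g)⁻¹ ∈ X := by
    rintro g _ ⟨x, hx, rfl⟩
    exact ⟨_, hI g x hx, by simp only [map_mul, map_inv]⟩
  letI : MulAction K X :=
    { smul := fun g y => ⟨π g * y * (π g)⁻¹, hX g y y.2⟩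
      one_smul := fun y => Subtype.ext (by
        change π 1 * (y : K ⧸ Z) * (π 1)⁻¹ = y
        simp)
      mul_smul := fun a b y => Subtype.ext (by
        change π (a * b) * (y : K ⧸ Z) * (π (a * b))⁻¹ = π a * (π b * y * (π b)⁻¹) * (π a)⁻¹
        simp only [map_mul]
        group) }
  have hs : ∀ (g : K) (y : X), ((g • y : X) : K ⧸ Z) = π g * y * (π g)⁻¹ := fun _ _ => rfl
  haveI : Fintype X := Fintype.ofFinite X
  let χ : K →* ℤˣ := Perm.sign.comp (MulAction.toPermHom K X)
  have hwχ : χ w = -1 := by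
    have h1 : (MulAction.toPermHom K X w) ^ 2 = 1 := by rw [← map_pow, pow_two, w2, map_one]
    have h2 := Perm.sign_of_pow_two_eq_one h1
    have h3 : Fintype.card (Function.fixedPoints (MulAction.toPermHom K X w)) = 0 := by
      rw [Fintype.card_eq_zero_iff]
      refine ⟨fun y => ?_⟩
      obtain ⟨⟨_, x, hx, rfl⟩, hy⟩ := y
      have h4 : π w * π x * (π w)⁻¹ = π x := congrArg Subtype.val hy
      rw [← map_inv, ← map_mul, ← map_mul] at h4
      rcases (hπ _ _).1 h4.symm with h5 | h5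
      · exact (hw x hx).1 h5
      · exact (hw x hx).2 h5
    rw [h3, ← Nat.card_eq_fintype_card, cX] at h2
    exact h2.trans (by decide)
  have hwM : w ∉ χ.ker := fun h => by
    rw [MonoidHom.mem_ker, hwχ] at h
    exact absurd h (by decide)
  refine ⟨χ.ker, ?_, ?_, hwM⟩
  · have h1 : χ.ker.index ∣ 2 := by
      rw [index_ker]
      have := card_subgroup_dvd_card χ.range
      rwa [Nat.card_eq_fintype_card (α := ℤˣ), Fintype.card_units_int] at this
    rcases (Nat.dvd_prime Nat.prime_two).1 h1 with h | h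
    · exact absurd (index_eq_one.1 h ▸ mem_top w) hwM
    · exact h
  · have h1 : MulAction.toPermHom K X z = 1 := by
      ext y
      have : π z = 1 := (QuotientGroup.eq_one_iff z).2 (Or.inr rfl)
      change ((z • y : X) : K ⧸ Z) = y
      rw [hs, this]
      simp
    rw [MonoidHom.mem_ker]
    change Perm.sign (MulAction.toPermHom K X z) = 1
    rw [h1, map_one]

end Cfsg.Lib.T33.Stab
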