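import Cfsg.Agent.T33.X8a
import Cfsg.Agent.T33.BasicA
import Cfsg.Agent.T33.Perm8

/-! The automizer of a self-centralizing `E₁₆` normalized by a Sylow `3`-subgroup. -/

set_option autoImplicit false

namespace Cfsg.Lib.T33

open Subgroup Cfsg.Lib.Trans Equiv Equiv.Perm

universe u

variable {G : Type u} [Group G] {P A : Subgroup G} {s : Fin 4 → G} {φ : Nm A →* Perm (Fin 8)}

namespace X8

theorem cube_cl : IsPGroup 3 (closure {c1, c2} : Subgroup (Perm (Fin 8))) := by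
  have := isMulCommutative_closure (k := {c1, c2}) (by
    rintro _ (rfl | rfl) _ (rfl | rfl) <;> decide)
  refine fun ⟨x, hx⟩ => ⟨1, Subtype.ext ?_⟩
  change x ^ 3 = 1
  induction hx using closure_induction with
  | mem x hx => rcases hx with rfl | rfl <;> decide
  | one => simp
  | mul x y hx hy h1 h2 =>
    rw [Commute.mul_pow (setLike_mul_comm (s := closure {c1, c2}) hx hy), h1, h2, mul_one]
  | inv x _ h => rw [inv_pow, h, inv_one]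

theorem exists_w {x y : Perm (Fin 8)} (h1 : (x = c1 ∨ x = c1⁻¹) ∨ y = c1 ∨ y = c1⁻¹)
    (h2 : (x = c2 ∨ x = c2⁻¹) ∨ y = c2 ∨ y = c2⁻¹) :
    ∃ w, w * x * w⁻¹ = c1 ∧ w * y * w⁻¹ = c2 := by
  suffices ∃ a ∈ [1, swap 0 3 * swap 1 4 * swap (2 : Fin 8) 5], ∃ b ∈ [1, swap (1 : Fin 8) 2],
      ∃ c ∈ [1, swap (4 : Fin 8) 5], a * b * c * x * (a * b * c)⁻¹ = c1 ∧
        a * b * c * y * (a * b * c)⁻¹ = c2 by
    obtain ⟨a, -, b, -, c, -, h⟩ := this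
    exact ⟨_, h⟩
  rcases h1 with (rfl | rfl) | rfl | rfl <;> rcases h2 with (h | h) | h | h <;>
    first | exact absurd h (by decide) | (subst h; decide +kernel)

theorem cl_eq [Finite G] (F : Fr P s) : closure {s 2, s 3} = P := by
  have le : closure {s 2, s 3} ≤ P := (closure_le _).2 (by rintro _ (rfl | rfl) <;> exact F.mem _)
  have lt := card_lt_of_lt (lt_of_le_of_ne (zpowers_le.2 (subset_closure (k := {s 2, s 3})
    (Or.inr rfl))) fun e => F.ne 2 3 (by decide) (e.ge (subset_closure (Or.inl rfl))))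
  have d := card_dvd_of_le le
  rw [Nat.card_zpowers, F.ord] at lt
  refine eq_of_le_of_card_ge le ?_
  rw [F.card] at d ⊢
  have := Nat.le_of_dvd (by norm_num) d
  generalize Nat.card (closure {s 2, s 3} : Subgroup G) = m at *
  interval_cases m <;> simp_all

theorem norm [Finite G] (h : Hy G) (F : Fr P s) (hA : El A 16) (hC : Ce A ≤ A) (hP : P ≤ Nm A)
    (h0 : A ⊓ Vs (s 0) ≠ ⊥) (h1 : A ⊓ Vs (s 1) ≠ ⊥) :
    ∃ φ, Ph A φ ∧ φ ⟨s 2, hP (F.mem 2)⟩ = c1 ∧ φ ⟨s 3, hP (F.mem 3)⟩ = c2 := by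
  have : Fact (Nat.Prime 3) := ⟨by norm_num⟩
  obtain ⟨φ, H⟩ := exists_ph hA hA.comm hC
  have inj : Function.Injective (φ.comp (inclusion hP)) := (injective_iff_map_eq_one _).2
    fun p e => Subtype.ext (F.eq_one_of_sq p.2 (hA.sq _ ((H.ker _).1 e)))
  have c9 : Nat.card (φ.comp (inclusion hP)).range = 9 :=
    (Nat.card_congr (MonoidHom.ofInjective inj).toEquiv).symm.trans F.card
  have sy : IsSylowIn 3 (φ.comp (inclusion hP)).range ⊤ :=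
    ⟨le_top, IsPGroup.of_card (n := 2) c9, fun d => by
      have := card_mul_relIndex (le_top (a := (φ.comp (inclusion hP)).range))
      rw [c9, card_top, Nat.card_perm, Nat.card_eq_fintype_card, Fintype.card_fin] at this
      simp only [Nat.factorial] at this
      omega⟩
  obtain ⟨w, -, hw⟩ := sy.exists_cj_le cube_cl le_top
  obtain ⟨ψ, H, hψ⟩ : ∃ ψ, Ph A ψ ∧ ∀ g, ψ g = w⁻¹ * φ g * w⁻¹⁻¹ := ⟨_, H.conj w⁻¹, fun _ => rfl⟩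
  have k : ∀ c ∈ closure {c1, c2}, c.IsThreeCycle → (ψ ⟨s 2, hP (F.mem 2)⟩ = c ∨
      ψ ⟨s 2, hP (F.mem 2)⟩ = c⁻¹) ∨ ψ ⟨s 3, hP (F.mem 3)⟩ = c ∨ ψ ⟨s 3, hP (F.mem 3)⟩ = c⁻¹ := by
    intro c hc c3
    obtain ⟨⟨p, hp⟩, e⟩ := hw (conj_mem_cj.2 hc)
    replace e : ψ ⟨p, hP hp⟩ = c := by
      rw [hψ, show φ ⟨p, hP hp⟩ = _ from e]
      group
    obtain rfl | ⟨k, hk⟩ := F.cov p hp
    · exact absurd (e.symm.trans (map_one ψ)) c3.ne_one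
    have e' : ψ ⟨s k, hP (F.mem k)⟩ = c ∨ ψ ⟨s k, hP (F.mem k)⟩ = c⁻¹ := by
      rcases hk with rfl | rfl
      · exact Or.inl e
      · exact Or.inr (by rw [← e, ← map_inv]; exact congrArg ψ (Subtype.ext (inv_inv _).symm))
    have n : A ⊓ Vs (s k) = ⊥ := (eq_bot_iff_forall _).2 fun a ha =>
      H.fpf ⟨s k, hP (F.mem k)⟩ (by rcases e' with e' | e' <;> rw [e']; exacts [c3, c3.inv]) a ha.1
        (h.comm (F.ord k) ha.2)
    fin_cases k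
    exacts [absurd n h0, absurd n h1, Or.inl e', Or.inr e']
  obtain ⟨v, e1, e2⟩ := exists_w (k c1 (subset_closure (Or.inl rfl)) c1_three)
    (k c2 (subset_closure (Or.inr rfl)) c2_three)
  exact ⟨_, H.conj v, e1, e2⟩

theorem aux (h : Hy G) (F : Fr P s) (H : Ph A φ) {j k : Fin 4} (jk : j ≠ k) {a b u : Nm A}
    (ha : a.1 = s k) (hb : b.1 = s j) (c : (φ a).IsThreeCycle) (hu : u.1 ∈ Vs (s k))
    (u1 : u.1 ≠ 1) : φ u * φ u = 1 ∧ φ u * φ a = φ a * φ u ∧ φ u * φ b ≠ φ b * φ u ∧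
      φ u * (φ b * φ u * (φ b)⁻¹) = φ b * φ u * (φ b)⁻¹ * φ u := by
  have m : (b * u * b⁻¹).1 ∈ Vs (s k) := (mem_normalizer_iff.1 (F.le_Nm_V k (hb ▸ F.mem j)) _).1 hu
  refine ⟨?_, ?_, fun e => u1 (F.fpf h jk hu ?_), ?_⟩
  · rw [← map_mul, show u * u = 1 from Subtype.ext (h.sq (F.ord k) hu), map_one]
  · rw [← map_mul, ← map_mul, show u * a = a * u from Subtype.ext (by
      simpa [ha] using h.comm (F.ord k) hu)]
  · have := H.fpf a c _ ((H.ker (u⁻¹ * (b * u * b⁻¹))).1 (by simp [← e]))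
      (ha ▸ h.comm (F.ord k) (mul_mem (inv_mem hu) m))
    rw [← hb, ← Subgroup.coe_mul, ← Subgroup.coe_mul, ← mul_inv_eq_iff_eq_mul.1
      (inv_mul_eq_one.1 (Subtype.ext this : u⁻¹ * (b * u * b⁻¹) = 1)).symm]
  · rw [← map_inv, ← map_mul, ← map_mul, ← map_mul, ← map_mul]
    exact congrArg φ (Subtype.ext (comm_of_sq (fun _ => h.sq (F.ord k)) _ hu _ m))

end X8

open X8

theorem std_or [Finite G] (h : Hy G) {P A : Subgroup G} {s : Fin 4 → G} (F : Fr P s) (hA : El A 16)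
    (hC : Ce A ≤ A) (hP : P ≤ Nm A) (h0 : A ⊓ Vs (s 0) ≠ ⊥) (h1 : A ⊓ Vs (s 1) ≠ ⊥)
    (h2 : Vs (s 2) ⊓ Nm A = ⊥) (h3 : Vs (s 3) ⊓ Nm A = ⊥) :
    (∀ g ∈ Nm A, ∃ a ∈ A, a * g ∈ Nm P) ∨ ∃ ψ, Std A (Nm A) ψ := by
  have : Fact (Nat.Prime 3) := ⟨by norm_num⟩
  obtain ⟨φ, H, e2, e3⟩ := norm h F hA hC hP h0 h1
  have m : (P.subgroupOf (Nm A)).map φ = closure {c1, c2} := by
    rw [← e2, ← e3, ← Set.image_pair, ← MonoidHom.map_closure]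
    congr 1
    rw [← map_subtype_inj, map_subgroupOf_eq_of_le hP, MonoidHom.map_closure, Set.image_pair]
    exact (cl_eq F).symm
  have k : ∀ j, Vs (s j) ⊓ Nm A = ⊥ → ∀ g ∈ φ.range, g * φ ⟨s j, hP (F.mem j)⟩ =
      φ ⟨s j, hP (F.mem j)⟩ * g → g ∈ closure {c1, c2} := by
    rintro j hj _ ⟨g, rfl⟩ c
    obtain ⟨a, ha, c⟩ := H.lift hA (F.ord j) c
    refine m.le ⟨g * ⟨a, le_normalizer ha⟩, (F.syl.eq_of_le (Q := Cs (s j) ⊓ Nm A)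
      (fun x => ⟨1, Subtype.ext (mem_bot.1 (hj.le
        ⟨h.cube _ (F.ord j) _ (mem_Cs.1 x.2.1), pow_mem x.2.2 3⟩))⟩)
      (le_inf (fun p hp => mem_Cs.2 (F.comm _ hp _ (F.mem j))) hP) le_top).le
        ⟨mem_Cs.2 c, mul_mem g.2 (le_normalizer ha)⟩, ?_⟩
    rw [map_mul, (H.ker ⟨a, _⟩).2 ha, mul_one]
  refine (perm_k (X := φ.range) (by rintro _ ⟨g, rfl⟩; exact H.sg g) ⟨_, e2⟩ ⟨_, e3⟩
    (e2 ▸ k 2 h2) (e3 ▸ k 3 h3)).imp (fun c g hg => ?_) fun c =>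
      H.std hA hC le_normalizer le_rfl (by simp) fun σ => Iff.trans (by simp) (c σ)
  let K := ((closure {c1, c2}).comap φ).map (Nm A).subtype
  obtain ⟨_, ⟨x, hx, rfl⟩, n, hn, rfl⟩ := (F.syl.mono (K := K)
    (fun p hp => ⟨⟨p, hP hp⟩, m.le ⟨_, hp, rfl⟩, rfl⟩) le_top).frattini (g := g) (mem_Nm (by
      rintro _ ⟨x, hx, rfl⟩
      exact ⟨⟨g, hg⟩ * x * ⟨g, hg⟩⁻¹, by
        simpa using (mem_normalizer_iff.1 (c ⟨⟨g, hg⟩, rfl⟩) _).1 hx, rfl⟩))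
  obtain ⟨p, hp, e⟩ := m.ge hx
  refine ⟨_, (H.ker (p * x⁻¹)).1 (by simp [e]), ?_⟩
  simpa [mul_assoc] using mul_mem (le_normalizer (show p.1 ∈ P from hp)) hn

theorem std_p4 [Finite G] (h : Hy G) {P A : Subgroup G} {s : Fin 4 → G} (F : Fr P s) (hA : El A 16)
    (hC : Ce A ≤ A) (hP : P ≤ Nm A) (h0 : A ⊓ Vs (s 0) ≠ ⊥) (h1 : A ⊓ Vs (s 1) ≠ ⊥)
    (h2 : Vs (s 2) ≤ Nm A) (h3 : Vs (s 3) ≤ Nm A) {u v : G} (hu : u ∈ Vs (s 2)) (hv : v ∈ Vs (s 3))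
    (huv : u * v * u⁻¹ * v⁻¹ ∉ A) : ∃ N ψ, Std A N ψ := by
  obtain ⟨φ, H, e2, e3⟩ := norm h F hA hC hP h0 h1
  obtain ⟨a1, a2, a3, a4⟩ := aux h F H (j := 3) (k := 2) (by decide) (a := ⟨_, hP (F.mem 2)⟩)
    (b := ⟨_, hP (F.mem 3)⟩) (u := ⟨u, h2 hu⟩) rfl rfl (e2 ▸ c1_three) hu (by
      rintro rfl; exact huv (by simp))
  obtain ⟨b1, b2, b3, b4⟩ := aux h F H (j := 2) (k := 3) (by decide) (a := ⟨_, hP (F.mem 3)⟩)
    (b := ⟨_, hP (F.mem 2)⟩) (u := ⟨v, h3 hv⟩) rfl rfl (e3 ▸ c2_three) hv (by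
      rintro rfl; exact huv (by simp))
  simp only [e2, e3] at a2 a3 a4 b2 b3 b4
  have k : φ.range ⊓ Cs c1 ≤ ((Cs (s 2)).subgroupOf (Nm A)).map φ := by
    rintro _ ⟨⟨g, rfl⟩, c⟩
    obtain ⟨a, ha, c⟩ := H.lift hA (s := ⟨_, hP (F.mem 2)⟩) (F.ord 2) (e2 ▸ mem_Cs.1 c)
    exact ⟨g * ⟨a, le_normalizer ha⟩, mem_Cs.2 c, by rw [map_mul, (H.ker ⟨a, _⟩).2 ha, mul_one]⟩
  rcases perm_p (X := φ.range) (by rintro _ ⟨g, rfl⟩; exact H.sg g) ⟨_, e2⟩ ⟨_, e3⟩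
    ((Subgroup.card_le_of_le k).trans ((Nat.le_of_dvd Nat.card_pos ((card_map_dvd _ φ).trans
      (card_comap_dvd_of_injective _ _ (subtype_injective _)))).trans (by
        have := h.card_le (F.ord 2)
        rw [h.cardC _ (F.ord 2)]
        omega))) ⟨_, rfl⟩ ⟨_, rfl⟩ a1 b1 a2 b2 a3 b3 a4 b4 (fun e => huv
      ((H.ker (⟨u, h2 hu⟩ * ⟨v, h3 hv⟩ * ⟨u, h2 hu⟩⁻¹ * ⟨v, h3 hv⟩⁻¹)).1 (by
        simp only [map_mul, map_inv, e]; group))) with c | c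
  · exact H.std7 hA hC c
  refine (H.conj (swap 6 7)).std7 hA hC fun σ => ⟨?_, fun d => ?_⟩
  · rintro ⟨g, rfl⟩
    simp [H.sg, ((c _).1 ⟨g, rfl⟩).2]
  · obtain ⟨g, e⟩ := (c (swap 6 7 * σ * swap 6 7)).2 ⟨by simp [d.1], by simp [d.2]⟩
    exact ⟨g, by simp [e, mul_assoc]⟩

end Cfsg.Lib.T33
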