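import Cfsg.Agent.T33.Defs
import Cfsg.Agent.S3103
import Cfsg.Agent.Solv.ElemAb
import Cfsg.Agent.Solv.Glauberman

/-! The automizer of a self-centralizing `E₁₆` inside `A₈`. -/

set_option autoImplicit false

namespace Cfsg.Lib.T33.X8

open Subgroup Cfsg.Lib.Trans Equiv Equiv.Perm

universe u

variable {G : Type u} [Group G]

theorem fixpt {V : Type*} [Group V] [Finite V] {τ : MulAut V} (h5 : τ ^ 5 = 1) {B C : Subgroup V}
    (le : B ≤ C) (hB : ∀ x, τ x ∈ B ↔ x ∈ B) (hC : ∀ x, τ x ∈ C ↔ x ∈ C)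
    (h : ¬ 5 ∣ Nat.card C - Nat.card B) : ∃ x ∈ C, x ∉ B ∧ τ x = x := by
  classical
  have : Fact (Nat.Prime 5) := ⟨by norm_num⟩
  have := Fintype.ofFinite V
  obtain ⟨x, hx⟩ := exists_fixed_point_of_prime (p := 5) (n := 1)
    (σ := (MulAut.toPerm V τ).subtypePerm (p := fun x => x ∈ (C : Set V) \ B)
      fun x => and_congr (hC x) (not_congr (hB x))) (by
      rw [← Nat.card_eq_fintype_card]
      change ¬ 5 ∣ ((C : Set V) \ B).ncard
      rwa [Set.ncard_sdiff (SetLike.coe_subset_coe.2 le)])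
    (Equiv.ext fun x => Subtype.ext (by
      erw [subtypePerm_pow]
      exact congrArg (fun ρ : MulAut V => ρ x.1) h5))
  exact ⟨x, x.2.1, x.2.2, congrArg Subtype.val hx⟩

theorem fpf {V : Type*} [Group V] [Finite V] (h16 : Nat.card V = 16) {σ τ : MulAut V}
    (h1 : σ ≠ 1) (h2 : τ ≠ 1) (h5 : τ ^ 5 = 1) (c : σ * τ = τ * σ) {a : V} (ha : σ a = a) :
    a = 1 := by
  by_contra a1
  have k : ∀ ρ : MulAut V, ρ ≠ 1 → ∀ a, a ≠ 1 → ρ a = a →
      Nat.card (fx (MonoidHom.id _) ρ) ∈ [2, 4, 8] := fun ρ n a a1 e => by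
    have d := h16 ▸ card_subgroup_dvd_card (fx (MonoidHom.id _) ρ)
    have n1 : Nat.card (fx (MonoidHom.id _) ρ) ≠ 1 := fun c =>
      a1 (mem_bot.1 ((card_eq_one.1 c).le (mem_fx.2 e)))
    have n2 : Nat.card (fx (MonoidHom.id _) ρ) ≠ 16 := fun c => n (MulEquiv.ext fun x =>
      mem_fx.1 ((eq_top_of_card_eq _ (c.trans h16.symm)).ge (mem_top x)))
    have := Nat.le_of_dvd (by norm_num) d
    generalize Nat.card (fx (MonoidHom.id _) ρ) = m at *
    interval_cases m <;> simp_all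
  obtain ⟨b, -, b1, e⟩ := fixpt h5 (bot_le (a := fx (MonoidHom.id _) σ)) (by simp) (fun x => by
    change σ (τ x) = τ x ↔ σ x = x
    rw [← MulAut.mul_apply, c, MulAut.mul_apply, τ.injective.eq_iff]) (by
    have := k σ h1 a a1 ha
    simp only [List.mem_cons, List.not_mem_nil, or_false, card_bot] at this ⊢
    omega)
  obtain ⟨x, -, x1, e⟩ := fixpt h5 (le_top (a := fx (MonoidHom.id _) τ))
    (fun x => τ.injective.eq_iff) (by simp) (by
    have := k τ h2 b b1 e
    simp only [List.mem_cons, List.not_mem_nil, or_false, card_top, h16] at this ⊢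
    omega)
  exact x1 e

theorem c1_three : c1.IsThreeCycle := card_support_eq_three_iff.1 (by decide)
theorem c2_three : c2.IsThreeCycle := card_support_eq_three_iff.1 (by decide)

/-- The action on eight points. -/
structure Ph (A : Subgroup G) (φ : Nm A →* Perm (Fin 8)) : Prop where
  sg : ∀ g, sign (φ g) = 1
  ker : ∀ g, φ g = 1 ↔ (g : G) ∈ A
  fpf : ∀ g, (φ g).IsThreeCycle → ∀ a ∈ A, a * g = g * a → a = 1

variable {A : Subgroup G} {φ : Nm A →* Perm (Fin 8)}

theorem Ph.conj (h : Ph A φ) (w : Perm (Fin 8)) : Ph A ((MulAut.conj w).toMonoidHom.comp φ) where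
  sg g := by simp [h.sg]
  ker g := by simp [← h.ker]
  fpf g c := h.fpf g ((cycleType_conj (τ := w)).symm.trans c)

theorem exists_ph [Finite G] (hA : El A 16) (hc : ∀ a ∈ A, ∀ b ∈ A, a * b = b * a)
    (hC : Ce A ≤ A) : ∃ φ, Ph A φ := by
  have : Solv.ElemAb 2 A := ⟨fun a b => Subtype.ext (hc _ a.2 _ b.2),
    fun a => Subtype.ext ((sq _).trans (hA.sq a a.2))⟩
  obtain ⟨f, hf⟩ := Agent.S3103.exists_injective_A8 (Solv.Vec.rep 2 (MonoidHom.id (MulAut A)))
    ((Solv.Vec.rep_injective_iff _).2 Function.injective_id) (by simp [hA.card])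
  have hs := (hf.bijective_of_nat_card_le (by
    rw [Solv.Vec.card_mulAut (p := 2) (n := 4) hA.card, nat_card_alternatingGroup]
    simp only [Nat.card_eq_fintype_card, Fintype.card_fin]
    decide)).2
  refine ⟨(alternatingGroup _).subtype.comp (f.comp A.normalizerMonoidHom), fun g => (f _).2,
    fun g => ?_, fun g c a ha e => ?_⟩
  · rw [MonoidHom.comp_apply, map_eq_one_iff _ (subtype_injective _), MonoidHom.comp_apply,
      map_eq_one_iff _ hf, ← MonoidHom.mem_ker, normalizerMonoidHom_ker, mem_subgroupOf]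
    exact ⟨fun h => hC h, fun h => mem_centralizer_iff.2 fun b hb => hc b hb g h⟩
  obtain ⟨w, hw⟩ := isConj_iff.1 (isConj_iff_cycleType_eq.2 (c1_three.trans c.symm))
  obtain ⟨τ, hτ⟩ := hs ⟨w * (swap 3 4 * swap 4 5 * (swap 5 6 * swap 6 7)) * w⁻¹, by simp⟩
  refine congrArg Subtype.val (fpf hA.card (σ := A.normalizerMonoidHom g) (τ := τ)
    (fun k => c.ne_one (by simp [k])) (fun k => ?_) (hf ?_) (hf (Subtype.ext ?_)) (a := ⟨a, ha⟩)
    (Subtype.ext ?_))
  · rw [k, map_one] at hτ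
    exact absurd (conj_eq_one_iff.1 (congrArg Subtype.val hτ).symm) (by decide)
  · rw [map_pow, hτ, map_one]
    refine Subtype.ext ((conj_pow ..).trans (conj_eq_one_iff.2 (by decide)))
  · rw [map_mul, map_mul, Subgroup.coe_mul, Subgroup.coe_mul, hτ]
    rw [show (f (A.normalizerMonoidHom g)).1 = _ from hw.symm, conj_mul, conj_mul]
    congr 2
    decide
  · change (g : G) * a * (g : G)⁻¹ = a
    rw [← e, mul_inv_cancel_right]

theorem Ph.std (h : Ph A φ) (hA : El A 16) (hC : Ce A ≤ A) {N : Subgroup G} (hAN : A ≤ N)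
    (le : N ≤ Nm A) (odd : ¬ 2 ∣ N.relIndex (Nm A))
    (hr : ∀ σ, (∃ g : Nm A, g.1 ∈ N ∧ φ g = σ) ↔ sign σ = 1 ∧ σ 6 = 6 ∧ σ 7 = 7) :
    ∃ ψ, Std A N ψ := by
  let e := Fin.castLEquiv (show 6 ≤ 8 by norm_num)
  have k : ∀ g : N, ∃ τ, extendDomainHom e τ = φ (inclusion le g) := fun g => by
    obtain ⟨-, h6, h7⟩ := (hr _).1 ⟨inclusion le g, g.2, rfl⟩
    generalize φ (inclusion le g) = σ at h6 h7
    have f : ∀ x : Fin 8, ¬ x.val < 6 → σ x = x := fun x hx => by
      rcases (by omega : x = 6 ∨ x = 7) with rfl | rfl <;> assumption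
    have hS : ∀ x, (σ x).val < 6 ↔ x.val < 6 := fun x =>
      ⟨fun c => by_contra fun d => d (f x d ▸ c), fun c => by_contra fun d =>
        d (by rwa [σ.injective (f _ d)])⟩
    refine ⟨e.symm.permCongr (σ.subtypePerm hS), Equiv.ext fun x => ?_⟩
    by_cases hx : x.val < 6
    · rw [extendDomainHom_apply, extendDomain_apply_subtype _ e hx]; simp
    · rw [extendDomainHom_apply, extendDomain_apply_not_subtype _ e hx, f x hx]
  choose l hl using k
  have inj := extendDomainHom_injective e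
  refine ⟨MonoidHom.mk' l fun a b => inj (by simp only [map_mul, hl]), hA, hC, hAN, le, odd,
    fun g => ?_, Subgroup.ext fun τ => ⟨?_, fun c => ?_⟩, fun g c => h.fpf (inclusion le g) ?_⟩
  · rw [← map_eq_one_iff _ inj]
    exact hl g ▸ h.ker _
  · rintro ⟨g, rfl⟩
    exact (sign_extendDomain _ e).symm.trans ((congrArg sign (hl g)).trans (h.sg _))
  · obtain ⟨g, h1, h2⟩ := (hr (extendDomainHom e τ)).2 ⟨(sign_extendDomain _ e).trans c,
      extendDomain_apply_not_subtype _ e (by decide), extendDomain_apply_not_subtype _ e (by decide)⟩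
    exact ⟨⟨g, h1⟩, inj ((hl _).trans h2)⟩
  · rw [← hl]
    exact (cycleType_extendDomain e).trans c

theorem Ph.std7 (h : Ph A φ) (hA : El A 16) (hC : Ce A ≤ A)
    (hr : ∀ σ, σ ∈ φ.range ↔ sign σ = 1 ∧ σ 7 = 7) : ∃ N ψ, Std A N ψ := by
  let N := ((MulAction.stabilizer (Perm (Fin 8)) (6 : Fin 8)).comap φ).map (Nm A).subtype
  have m : ∀ g : Nm A, g.1 ∈ N ↔ φ g 6 = 6 := fun g => mem_map_iff_mem (subtype_injective _)
  refine ⟨N, h.std hA hC (fun a ha => (m ⟨a, le_normalizer ha⟩).2 (by rw [(h.ker _).2 ha]; rfl))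
    (map_subtype_le _) ?_ fun σ => ⟨?_, fun c => ?_⟩⟩
  · have e : MulAction.orbit φ.range (6 : Fin 8) = {7}ᶜ := Set.ext fun x => ⟨?_, fun c => ?_⟩
    · rw [relIndex, subgroupOf, comap_map_eq_self_of_injective (subtype_injective _), index_comap]
      change ¬ 2 ∣ (MulAction.stabilizer φ.range (6 : Fin 8)).index
      rw [MulAction.index_stabilizer, e, Set.ncard_compl]
      simp
    · rintro ⟨σ, rfl⟩ c
      exact absurd (σ.1.injective (c.trans ((hr _).1 σ.2).2.symm)) (by decide)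
    · obtain ⟨y, h1, h2, h3⟩ := (by decide +kernel : ∀ x : Fin 8, x ≠ 7 → ∃ y : Fin 8 × Fin 8,
        sign (swap y.1 x * swap 6 y.2) = 1 ∧ (swap y.1 x * swap 6 y.2) 7 = 7 ∧
        (swap y.1 x * swap 6 y.2) 6 = x) x c
      exact ⟨⟨_, (hr _).2 ⟨h1, h2⟩⟩, h3⟩
  · rintro ⟨g, c, rfl⟩
    exact ⟨h.sg g, (m g).1 c, ((hr _).1 ⟨g, rfl⟩).2⟩
  · obtain ⟨g, rfl⟩ := (hr σ).2 ⟨c.1, c.2.2⟩
    exact ⟨g, (m g).2 c.2.1, rfl⟩

/-- Coprime lifting of centralizers. -/
theorem Ph.lift [Finite G] (h : Ph A φ) (hA : El A 16) {s g : Nm A} (h3 : orderOf (s : G) = 3)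
    (c : φ g * φ s = φ s * φ g) : ∃ a ∈ A, g * a * s = s * (g * a) := by
  obtain ⟨a, ha, k⟩ := Solv.exists_centralizer_mem_coset A (zpowers (s : G)) (zpowers_le.2 s.2)
    (by rw [Nat.card_zpowers, h3, hA.card]; norm_num) (Or.inl inferInstance) g (by
      rintro _ ⟨n, rfl⟩
      refine (h.ker (g⁻¹ * (s ^ n * g * (s ^ n)⁻¹))).1 ?_
      have c' : Commute (φ g) (φ s ^ n) := Commute.zpow_right c n
      simp [← c'.eq])
  exact ⟨a, ha, (k _ (mem_zpowers _)).symm⟩

end Cfsg.Lib.T33.X8
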